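import Mathlib

/-! Flavell: the fixed points of a coprime automorphism of odd prime order in `[H, P]`. -/

set_option autoImplicit false

namespace Cfsg.Lib.Flav

open Subgroup
open scoped commutatorElement

universe u
variable {H : Type*} [Group H] {K : Type*} [Group K]

/-- `[h, P]`. -/
def cm (x : MulAut H) (h : H) : Subgroup H := closure {c | ∃ i : ℕ, c = h⁻¹ * (x ^ i) h}
/-- `[T, P]`. -/
def cmS (x : MulAut H) (T : Subgroup H) : Subgroup H :=
  closure {c | ∃ h ∈ T, ∃ i : ℕ, c = h⁻¹ * (x ^ i) h}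
/-- `C_H(P)`. -/
def fx (x : MulAut H) : Subgroup H := (x : H →* H).eqLocus (MonoidHom.id H)
/-- The subgroup generated by the fixed points in the `[h, P]`. -/
def DD (x : MulAut H) : Subgroup H := ⨆ h : H, cm x h ⊓ fx x
/-- Invariant subgroups. -/
def Iv (x : MulAut H) (T : Subgroup H) : Prop := ∀ t ∈ T, x t ∈ T

variable {x : MulAut H} {y : MulAut K} {T M N : Subgroup H} {h c : H} {p : ℕ}

theorem mem_fx : c ∈ fx x ↔ x c = c := Iff.rfl

theorem pow_succ_apply (i : ℕ) (h : H) : (x ^ (i + 1)) h = x ((x ^ i) h) := by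
  rw [pow_succ']; rfl

theorem Iv.pow (hT : Iv x T) (i : ℕ) : Iv (x ^ i) T := by
  induction i with
  | zero => exact fun t ht => ht
  | succ i ih => exact fun t ht => pow_succ_apply (x := x) i t ▸ hT _ (ih t ht)

theorem pow_fix (hc : x c = c) (i : ℕ) : (x ^ i) c = c := by
  induction i with
  | zero => rfl
  | succ i ih => rw [pow_succ_apply, ih, hc]

theorem Iv.inf (h1 : Iv x T) (h2 : Iv x M) : Iv x (T ⊓ M) := fun t ht => ⟨h1 t ht.1, h2 t ht.2⟩

theorem iv_iff : Iv x T ↔ T.map (x : H →* H) ≤ T := by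
  rw [map_le_iff_le_comap]; rfl

theorem Iv.sup (h1 : Iv x T) (h2 : Iv x M) : Iv x (T ⊔ M) := by
  rw [iv_iff] at *
  rw [Subgroup.map_sup]
  exact sup_le_sup h1 h2

theorem Iv.comm (h1 : Iv x T) (h2 : Iv x M) : Iv x ⁅T, M⁆ := by
  rw [iv_iff] at *
  rw [map_commutator]
  exact commutator_mono h1 h2

theorem iv_top : Iv x ⊤ := fun _ _ => trivial

theorem iv_center : Iv x (center H) := fun z hz => mem_center_iff.2 fun g => by
  obtain ⟨g, rfl⟩ := x.surjective g
  rw [← map_mul, ← map_mul, mem_center_iff.1 hz g]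

theorem mem_cm (i : ℕ) (h : H) : h⁻¹ * (x ^ i) h ∈ cm x h := subset_closure ⟨i, rfl⟩

theorem mem_cm' (h : H) : h⁻¹ * x h ∈ cm x h := by simpa using mem_cm (x := x) 1 h

theorem mem_cmS (hh : h ∈ T) (i : ℕ) : h⁻¹ * (x ^ i) h ∈ cmS x T := subset_closure ⟨h, hh, i, rfl⟩

theorem cm_le_cmS (hh : h ∈ T) : cm x h ≤ cmS x T :=
  closure_mono fun _ ⟨i, e⟩ => ⟨h, hh, i, e⟩

theorem cmS_le (hT : ∀ h ∈ T, ∀ i : ℕ, h⁻¹ * (x ^ i) h ∈ M) : cmS x T ≤ M :=
  (closure_le _).2 fun _ ⟨h, hh, i, e⟩ => e ▸ hT h hh i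

theorem Iv.cmS_le (hT : Iv x T) : cmS x T ≤ T :=
  Flav.cmS_le fun h hh i => mul_mem (inv_mem hh) (hT.pow i h hh)

theorem iv_cm (h : H) : Iv x (cm x h) := by
  rw [iv_iff, map_le_iff_le_comap]
  refine (closure_le _).2 ?_
  rintro _ ⟨i, rfl⟩
  change x _ ∈ cm x h
  have : x (h⁻¹ * (x ^ i) h) = (h⁻¹ * x h)⁻¹ * (h⁻¹ * (x ^ (i + 1)) h) := by
    rw [pow_succ_apply, map_mul, map_inv]; group
  exact this ▸ mul_mem (inv_mem (mem_cm' h)) (mem_cm _ h)

theorem iv_cmS (T : Subgroup H) : Iv x (cmS x T) := by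
  rw [iv_iff, map_le_iff_le_comap]
  exact cmS_le fun h hh i => cm_le_cmS hh (iv_cm h _ (mem_cm i h))

theorem le_norm_cmS (T : Subgroup H) {t : H} (ht : t ∈ T) : ∀ c ∈ cmS x T, t * c * t⁻¹ ∈ cmS x T := by
  refine cmS_le (M := (cmS x T).comap (MulAut.conj t : H →* H)) fun h hh i => ?_
  change t * _ * t⁻¹ ∈ cmS x T
  have : t * (h⁻¹ * (x ^ i) h) * t⁻¹ =
      (h * t⁻¹)⁻¹ * (x ^ i) (h * t⁻¹) * (t⁻¹⁻¹ * (x ^ i) t⁻¹)⁻¹ := by
    rw [map_mul]; group
  exact this ▸ mul_mem (mem_cmS (mul_mem hh (inv_mem ht)) i) (inv_mem (mem_cmS (inv_mem ht) i))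

theorem DD_le : DD x ≤ fx x := iSup_le fun _ => inf_le_right

theorem cm_inf_le (h : H) : cm x h ⊓ fx x ≤ DD x := le_iSup (fun h => cm x h ⊓ fx x) h

section
variable (f : H →* K) (hf : ∀ a, f (x a) = y (f a))
include hf

theorem map_pow_apply (i : ℕ) (a : H) : f ((x ^ i) a) = (y ^ i) (f a) := by
  induction i with
  | zero => rfl
  | succ i ih => rw [pow_succ_apply, pow_succ_apply, hf, ih]

theorem map_cm (h : H) : (cm x h).map f = cm y (f h) := by
  rw [cm, MonoidHom.map_closure, cm]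
  congr 1
  ext c
  constructor
  · rintro ⟨_, ⟨i, rfl⟩, rfl⟩
    exact ⟨i, by rw [map_mul, map_inv, map_pow_apply f hf]⟩
  · rintro ⟨i, rfl⟩
    exact ⟨_, ⟨i, rfl⟩, by rw [map_mul, map_inv, map_pow_apply f hf]⟩

theorem map_cmS (T : Subgroup H) : (cmS x T).map f = cmS y (T.map f) := by
  rw [cmS, MonoidHom.map_closure, cmS]
  congr 1
  ext c
  constructor
  · rintro ⟨_, ⟨h, hh, i, rfl⟩, rfl⟩
    exact ⟨_, ⟨h, hh, rfl⟩, i, by rw [map_mul, map_inv, map_pow_apply f hf]⟩
  · rintro ⟨_, ⟨h, hh, rfl⟩, i, rfl⟩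
    exact ⟨_, ⟨h, hh, i, rfl⟩, by rw [map_mul, map_inv, map_pow_apply f hf]⟩

theorem map_DD : (DD x).map f ≤ DD y := by
  rw [map_le_iff_le_comap]
  refine iSup_le fun h c hc => cm_inf_le (f h) ⟨?_, ?_⟩
  · exact map_cm f hf h ▸ mem_map_of_mem f hc.1
  · change y (f c) = f c
    rw [← hf, mem_fx.1 hc.2]

end

theorem conj_mem_DD (hc : x c = c) {d : H} (hd : d ∈ DD x) : c * d * c⁻¹ ∈ DD x :=
  map_DD (MulAut.conj c : H →* H) (fun a => by simp [hc]) ⟨d, hd, rfl⟩

theorem fix_coset [Finite H] [Fact p.Prime] (hx : x ^ p = 1) (hp : ¬ p ∣ Nat.card H)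
    (hT : Iv x T) {t : H} (ht : t⁻¹ * x t ∈ T) : ∃ k ∈ T, x (t * k) = t * k := by
  classical
  haveI := Fintype.ofFinite T
  let s : T → T := fun k => ⟨t⁻¹ * x (t * k), by
    rw [map_mul, ← mul_assoc]; exact mul_mem ht (hT _ k.2)⟩
  have hs : Function.Injective s := fun a b e => by
    have : t⁻¹ * x (t * a) = t⁻¹ * x (t * b) := congrArg Subtype.val e
    exact Subtype.ext (by simpa using this)
  let σ : Equiv.Perm T := Equiv.ofBijective s (Finite.injective_iff_bijective.1 hs)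
  have h1 : ∀ (i : ℕ) (k : T), t * ((σ ^ i) k : T) = (x ^ i) (t * k) := fun i => by
    induction i with
    | zero => exact fun _ => rfl
    | succ i ih =>
      intro k
      rw [pow_succ_apply, ← ih, pow_succ']
      change t * (t⁻¹ * _) = _
      rw [mul_inv_cancel_left]
  obtain ⟨k, hk⟩ := Equiv.Perm.exists_fixed_point_of_prime (p := p) (n := 1) (σ := σ)
    (fun e => hp ((Nat.card_eq_fintype_card (α := T) ▸ e).trans (card_subgroup_dvd_card T)))
    (Equiv.ext fun k => Subtype.ext (by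
      have := h1 p k
      rw [hx] at this
      simpa using this))
  refine ⟨k, k.2, ?_⟩
  have := h1 1 k
  rw [pow_one, pow_one, hk] at this
  exact this.symm

theorem exists_fix_mul [Finite H] [Fact p.Prime] (hx : x ^ p = 1) (hp : ¬ p ∣ Nat.card H)
    {t : H} (ht : t ∈ T) : ∃ k ∈ cmS x T, x (t * k) = t * k :=
  fix_coset hx hp (iv_cmS T) (cm_le_cmS ht (mem_cm' t))

theorem le_of_sq (hp : Odd p) (hx : x ^ p = 1) (hM : ∀ h, h⁻¹ * x (x h) ∈ M) (h : H) :
    h⁻¹ * x h ∈ M := by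
  have h1 : ∀ k : ℕ, h⁻¹ * (x ^ (2 * k)) h ∈ M := fun k => by
    induction k with
    | zero => simp
    | succ k ih =>
      rw [Nat.mul_succ, pow_succ_apply, pow_succ_apply]
      simpa using mul_mem ih (hM ((x ^ (2 * k)) h))
  obtain ⟨k, rfl⟩ := hp
  have := h1 (k + 1)
  rwa [show 2 * (k + 1) = 2 * k + 1 + 1 by ring, pow_succ, hx, one_mul] at this

theorem eq_top_of (ht : cmS x ⊤ = ⊤) (hM : ∀ h, h⁻¹ * x h ∈ M) : M = ⊤ := by
  rw [eq_top_iff, ← ht]
  refine cmS_le fun h _ i => ?_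
  induction i with
  | zero => simp
  | succ i ih =>
    rw [pow_succ_apply]
    simpa using mul_mem ih (hM ((x ^ i) h))

theorem comm_mul_left (hc : ∀ a b : H, ⁅a, b⁆ ∈ center H) (a b c : H) :
    ⁅a * b, c⁆ = ⁅a, c⁆ * ⁅b, c⁆ := by
  calc ⁅a * b, c⁆ = a * ⁅b, c⁆ * (c * a⁻¹ * c⁻¹) := by simp only [commutatorElement_def]; group
    _ = ⁅b, c⁆ * ⁅a, c⁆ := by
      rw [mem_center_iff.1 (hc b c) a]; simp only [commutatorElement_def]; group
    _ = _ := mem_center_iff.1 (hc a c) _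

theorem comm_mul_right (hc : ∀ a b : H, ⁅a, b⁆ ∈ center H) (a b c : H) :
    ⁅c, a * b⁆ = ⁅c, a⁆ * ⁅c, b⁆ := by
  rw [← commutatorElement_inv, comm_mul_left hc, mul_inv_rev, commutatorElement_inv,
    commutatorElement_inv, mem_center_iff.1 (hc c a)]

theorem quot_comm (hc : ∀ a b : H, ⁅a, b⁆ ∈ center H) (a b : H ⧸ center H) : a * b = b * a := by
  obtain ⟨a, rfl⟩ := QuotientGroup.mk_surjective a
  obtain ⟨b, rfl⟩ := QuotientGroup.mk_surjective b
  rw [← commutatorElement_eq_one_iff_mul_comm]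
  exact (map_commutatorElement (QuotientGroup.mk' _) a b).symm.trans
    ((QuotientGroup.eq_one_iff _).2 (hc a b))

theorem class_two (hp : Odd p) (hx : x ^ p = 1) (ht : cmS x ⊤ = ⊤)
    (hc : ∀ a b : H, ⁅a, b⁆ ∈ center H) (hz : ∀ z ∈ center H, x z = z)
    (ha : ∀ h, ⁅h⁻¹ * x h, x (h⁻¹ * x h)⁆ = 1) : center H = ⊤ := by
  letI : CommGroup (H ⧸ center H) := { (inferInstance : Group _) with mul_comm := quot_comm hc }
  let J : Subgroup H :=
    { carrier := {g | ∃ h, ((h⁻¹ * x h : H) : H ⧸ center H) = g}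
      one_mem' := ⟨1, by simp⟩
      mul_mem' := by
        rintro u w ⟨a, ha⟩ ⟨b, hb⟩
        refine ⟨a * b, ?_⟩
        rw [QuotientGroup.mk_mul _ u w, ← ha, ← hb]
        simp only [QuotientGroup.mk_mul, map_mul, mul_inv_rev]
        ac_rfl
      inv_mem' := by
        rintro _ ⟨a, ha⟩
        refine ⟨a⁻¹, ?_⟩
        rw [QuotientGroup.mk_inv, ← ha]
        simp only [QuotientGroup.mk_mul, map_inv, mul_inv_rev, QuotientGroup.mk_inv]
        ac_rfl }
  have hJ : J = ⊤ := eq_top_of ht fun h => ⟨h, rfl⟩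
  have z1 : ∀ z ∈ center H, ∀ g : H, ⁅z, g⁆ = 1 := fun z hz g =>
    commutatorElement_eq_one_iff_mul_comm.2 (mem_center_iff.1 hz g).symm
  have z2 : ∀ z ∈ center H, ∀ g : H, ⁅g, z⁆ = 1 := fun z hz g =>
    commutatorElement_eq_one_iff_mul_comm.2 (mem_center_iff.1 hz g)
  have h1 : ∀ u, ⁅u, x u⁆ = 1 := fun u => by
    obtain ⟨h, e⟩ : u ∈ J := hJ ▸ mem_top u
    obtain ⟨z, hz', rfl⟩ : ∃ z ∈ center H, u = h⁻¹ * x h * z :=
      ⟨_, QuotientGroup.eq.1 e, by group⟩
    rw [map_mul, hz z hz', comm_mul_left hc, z1 z hz', comm_mul_right hc, z2 z hz', ha]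
    simp
  have h2 : ∀ u w, ⁅u, x w⁆ = ⁅x u, w⁆ := fun u w => by
    have := h1 (u * w)
    rw [map_mul, comm_mul_left hc, comm_mul_right hc, comm_mul_right hc, h1, h1, one_mul,
      mul_one, mul_eq_one_iff_eq_inv, commutatorElement_inv] at this
    exact this
  refine eq_top_of ht (le_of_sq hp hx fun w => mem_center_iff.2 fun u => ?_)
  rw [← commutatorElement_eq_one_iff_mul_comm, comm_mul_right hc, h2, ← map_commutatorElement,
    hz _ (hc _ _), ← comm_mul_right hc]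
  simp

/-- The operator computation: `N = [N, H]` abelian, `H / C(N)` abelian, all `[h, P]` abelian. -/
theorem le_center_of [hN : N.Normal] (hp : Odd p) (hx : x ^ p = 1) (ht : cmS x ⊤ = ⊤)
    (hi : Iv x N) (hab : ∀ a ∈ N, ∀ b ∈ N, a * b = b * a) (hN' : ⁅N, ⊤⁆ = N)
    (hc : ∀ a b : H, ∀ n ∈ N, a * b * n * (a * b)⁻¹ = b * a * n * (b * a)⁻¹)
    (ha : ∀ h, h⁻¹ * x h * (h⁻¹ * x (x h)) = h⁻¹ * x (x h) * (h⁻¹ * x h)) : N = ⊥ := by
  letI : CommGroup N := { (inferInstance : Group _) with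
    mul_comm := fun a b => Subtype.ext (hab a a.2 b b.2) }
  let r : H →* AddMonoid.End (Additive N) :=
    { toFun := fun g => MonoidHom.toAdditive (MulAut.conjNormal (H := N) g).toMonoidHom
      map_one' := by rw [map_one]; rfl
      map_mul' := fun a b => by rw [map_mul]; rfl }
  let ξ : AddMonoid.End (Additive N) :=
    MonoidHom.toAdditive (((x : H →* H).comp N.subtype).codRestrict N fun n => hi n n.2)
  have hr : ∀ g (n : Additive N), ((r g n).toMul : H) = g * n.toMul * g⁻¹ := fun _ _ => rfl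
  have hξ : ∀ n : Additive N, ((ξ n).toMul : H) = x n.toMul := fun _ => rfl
  have ext' : ∀ {a b : Additive N}, (a.toMul : H) = b.toMul → a = b := fun e =>
    Additive.toMul.injective (Subtype.ext e)
  have c1 : ∀ a b, r a * r b = r b * r a := fun a b => by
    rw [← map_mul, ← map_mul]
    exact AddMonoidHom.ext fun n => ext' (hc a b _ n.toMul.2)
  have c2 : ∀ a, ξ * r a = r (x a) * ξ := fun a => AddMonoidHom.ext fun n => ext' (by
    change ((ξ (r a n)).toMul : H) = (r (x a) (ξ n)).toMul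
    rw [hξ, hr, hr, hξ]; simp)
  have k1 : ∀ T : AddMonoid.End (Additive N), (∀ g, T * (r g - 1) = 0) → T = 0 := fun T hT => by
    let W : Subgroup H := (AddSubgroup.toSubgroup' (AddMonoidHom.ker T)).map N.subtype
    have : ⁅N, ⊤⁆ ≤ W := by
      rw [commutator_comm]
      refine commutator_le.2 fun g _ n hn => mem_map.2
        ⟨_, DFunLike.congr_fun (hT g) (Additive.ofMul (⟨n, hn⟩ : N)), ?_⟩
      change (((r g (Additive.ofMul (⟨n, hn⟩ : N)) - Additive.ofMul (⟨n, hn⟩ : N)).toMul : N) : H) = _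
      rw [toMul_sub, coe_div, hr, div_eq_mul_inv]
      rfl
    refine AddMonoidHom.ext fun n => ?_
    obtain ⟨m, hm, e⟩ := this (hN'.ge n.toMul.2)
    rw [← ext' (a := Additive.ofMul m) e]
    exact hm
  have k2 : ∀ T : AddMonoid.End (Additive N), ∃ J : Subgroup H, ∀ g, g ∈ J ↔ T * r g = T :=
    fun T => ⟨{ carrier := {g | T * r g = T}
                one_mem' := by simp
                mul_mem' := fun {a b} h1 h2 => by
                  change T * r (a * b) = T
                  rw [map_mul, ← mul_assoc, h1, h2]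
                inv_mem' := fun {a} h1 => by
                  change T * r a⁻¹ = T
                  rw [← congrArg (· * r a⁻¹) h1, mul_assoc, ← map_mul]; simp }, fun _ => Iff.rfl⟩
  have k3 : ∀ T : AddMonoid.End (Additive N), (∀ c, T * r (c⁻¹ * x (x c)) = T) → T = 0 :=
    fun T hT => by
      obtain ⟨J, hJ⟩ := k2 T
      have := eq_top_of (M := J) ht (le_of_sq hp hx fun c => (hJ _).2 (hT c))
      exact k1 T fun g => by rw [mul_sub, (hJ g).1 (this ▸ mem_top g)]; simp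
  have k4 : ∀ T : AddMonoid.End (Additive N), (∀ c, T * r (c⁻¹ * x c) = T) → T = 0 :=
    fun T hT => by
      obtain ⟨J, hJ⟩ := k2 T
      have := eq_top_of (M := J) ht fun c => (hJ _).2 (hT c)
      exact k1 T fun g => by rw [mul_sub, (hJ g).1 (this ▸ mem_top g)]; simp
  have rel : ∀ h, (r (h⁻¹ * x h) - 1) * (r (h⁻¹ * x (x h)) * (ξ * ξ) - 1) =
      (r (h⁻¹ * x (x h)) - 1) * (r (h⁻¹ * x h) * ξ - 1) := fun h => by
    refine AddMonoidHom.ext fun v => ?_
    have e1 := ha (h * v.toMul)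
    have e2 := ha h
    simp only [map_mul, mul_inv_rev] at e1
    have e3 : ∀ a b : H, ((v.toMul : H))⁻¹ * h⁻¹ * (a * b) =
        (v.toMul : H)⁻¹ * ((h⁻¹ * a) * b * (h⁻¹ * a)⁻¹) * (h⁻¹ * a) := fun a b => by group
    rw [e3, e3] at e1
    generalize h⁻¹ * x h = a at e1 e2 ⊢
    generalize h⁻¹ * x (x h) = b at e1 e2 ⊢
    have e4 : (-v + r a (ξ v)) + r a (-v + r b (ξ (ξ v))) =
        (-v + r b (ξ (ξ v))) + r b (-v + r a (ξ v)) := ext' (by
      simp only [toMul_add, toMul_neg, coe_mul, coe_inv, hr, hξ]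
      generalize (v.toMul : H)⁻¹ * (a * x v.toMul * a⁻¹) = m at e1 ⊢
      generalize (v.toMul : H)⁻¹ * (b * x (x v.toMul) * b⁻¹) = n at e1 ⊢
      calc m * (a * n * a⁻¹) = m * a * (n * b) * (a * b)⁻¹ := by group
        _ = n * b * (m * a) * (b * a)⁻¹ := by rw [e1, e2]
        _ = _ := by group)
    change r a (r b (ξ (ξ v)) - v) - (r b (ξ (ξ v)) - v) = r b (r a (ξ v) - v) - (r a (ξ v) - v)
    simp only [sub_eq_neg_add] at e4 ⊢
    rw [neg_add_eq_iff_eq_add, ← add_assoc, add_comm _ (-_), add_assoc, ← e4, neg_add_cancel_left]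
  have can : ∀ T : AddMonoid.End (Additive N), T * ξ = 0 → T = 0 := fun T hT => by
    refine AddMonoidHom.ext fun n => ?_
    obtain ⟨k, rfl⟩ := hp
    have : ξ (Additive.ofMul ⟨_, hi.pow (2 * k) _ n.toMul.2⟩) = n := ext' (by
      rw [hξ]
      exact (pow_succ_apply _ _).symm.trans (by rw [hx]; rfl))
    rw [← this]
    exact DFunLike.congr_fun hT _
  have c3 : ∀ (T : AddMonoid.End (Additive N)) (a b : H), T * (r a - r b) = 0 →
      T * r (b⁻¹ * a) = T := fun T a b e => by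
    rw [mul_sub, sub_eq_zero] at e
    rw [map_mul, c1, ← mul_assoc, e, mul_assoc, ← map_mul]; simp
  have key : ∀ h, r (h⁻¹ * x h) = 1 := fun h => by
    have e := rel h
    generalize h⁻¹ * x h = a at e ⊢
    generalize h⁻¹ * x (x h) = b at e
    have cc : ∀ a b, Commute (r a) (r b) := c1
    have s1 : ∀ c, (r a - 1) * r b * (r (x (x c)) - r c) * ξ =
        (r b - 1) * r a * (r (x c) - r c) := fun c => by
      refine sub_eq_zero.1 (can _ ?_)
      have e1 := congrArg (· * r c) e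
      have e2 := congrArg (r c * ·) e
      simp only [mul_sub, sub_mul, mul_assoc, c2, mul_one, one_mul] at e1 e2 ⊢
      simp only [← mul_assoc, c2] at e1 e2 ⊢
      simp only [mul_assoc, c2] at e1
      simp only [← mul_assoc] at e1
      simp only [c1 c] at e2
      rw [mul_assoc (r a) (r c) (r b), mul_assoc (r b) (r c) (r a), c1 c b, c1 c a, ← mul_assoc,
        ← mul_assoc] at e2
      linear_combination (norm := abel1) e1 - e2
    have s2 : ∀ c, (r a - 1) * r b * (r (x (x c)) - r c) = 0 := fun c => by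
      refine k4 _ fun d => c3 _ _ _ (can _ ?_)
      have t1 : Commute (r d) ((r a - 1) * r b * (r (x (x c)) - r c)) :=
        (((cc _ _).sub_right (.one_right _)).mul_right (cc _ _)).mul_right
          ((cc _ _).sub_right (cc _ _))
      have t2 : Commute (r d) ((r b - 1) * r a * (r (x c) - r c)) :=
        (((cc _ _).sub_right (.one_right _)).mul_right (cc _ _)).mul_right
          ((cc _ _).sub_right (cc _ _))
      have e1 := s1 c
      generalize (r a - 1) * r b * (r (x (x c)) - r c) = β at t1 e1 ⊢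
      rw [mul_sub, sub_mul, mul_assoc, ← c2, ← mul_assoc, ← t1.eq, mul_assoc (r d), e1, t2.eq,
        sub_self]
    have s3 : (r a - 1) * r b = 0 := k3 _ fun c => c3 _ _ _ (s2 c)
    have := congrArg (· * r b⁻¹) s3
    simp only [mul_assoc, ← map_mul, mul_inv_cancel, map_one, mul_one, zero_mul] at this
    exact sub_eq_zero.1 this
  have h0 := k4 1 fun c => by rw [key, mul_one]
  refine eq_bot_iff.2 fun n hn => ?_
  exact congrArg (fun f : AddMonoid.End (Additive N) => ((f (Additive.ofMul (⟨n, hn⟩ : N))).toMul : H)) h0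

end Cfsg.Lib.Flav
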