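import Cfsg.Agent.Lib.Coprime.Flavell

/-! Flavell's theorem: `C_{[H,P]}(P) = ⟨C_{[h,P]}(P)⟩`; the minimal counterexample. -/

set_option autoImplicit false

namespace Cfsg.Lib.Flav

open Subgroup
open scoped commutatorElement

universe u
variable {H : Type*} [Group H] {x : MulAut H} {T M N : Subgroup H} {h c : H} {p : ℕ}

/-- A minimal counterexample. -/
structure MC (p : ℕ) (x : MulAut H) : Prop where
  odd : Odd p
  pow : x ^ p = 1
  cop : ¬ p ∣ Nat.card H
  top : cmS x ⊤ = ⊤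
  sub : ∀ T : Subgroup H, Iv x T → T ≠ ⊤ → cmS x T ⊓ fx x ≤ DD x
  quo : ∀ M : Subgroup H, M.Normal → Iv x M → M ≠ ⊥ → ∀ c ∈ fx x, ∃ d ∈ DD x, d⁻¹ * c ∈ M
  ne : ¬ fx x ≤ DD x

theorem normal_of_sup [hN : N.Normal] (ht : N ⊔ T = ⊤) (h1 : ∀ g ∈ N, ∀ m ∈ M, g * m * g⁻¹ ∈ M)
    (h2 : ∀ g ∈ T, ∀ m ∈ M, g * m * g⁻¹ ∈ M) : M.Normal := ⟨fun m hm g => by
  obtain ⟨a, ha, b, hb, rfl⟩ := mem_sup_of_normal_left.1 (ht ▸ mem_top g)
  simpa [mul_assoc] using h1 a ha _ (h2 b hb m hm)⟩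

namespace MC
variable (m : MC p x)
include m

theorem eq_bot (hn : M.Normal) (hi : Iv x M) (hD : M ⊓ fx x ≤ DD x) : M = ⊥ := by
  by_contra h0
  refine m.ne fun c hc => ?_
  obtain ⟨d, hd, e⟩ := m.quo M hn hi h0 c hc
  simpa using mul_mem hd (hD (mem_inf.2 ⟨e, mul_mem (inv_mem (DD_le hd)) hc⟩))

theorem eq_bot' (hn : M.Normal) (hi : Iv x M) (hD : M ≤ cm x h) : M = ⊥ :=
  m.eq_bot hn hi ((inf_le_inf_right _ hD).trans (cm_inf_le h))

theorem eq_bot_center (hi : Iv x M) (hc : M ≤ center H) (hD : M ⊓ fx x ≤ DD x) : M = ⊥ :=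
  m.eq_bot ⟨fun a ha g => by rwa [mem_center_iff.1 (hc ha) g, mul_inv_cancel_right]⟩ hi hD

theorem zfix {z : H} (hz : z ∈ center H) : x z = z := by
  have := m.eq_bot_center (iv_cm z) ((closure_le _).2 (by
    rintro _ ⟨i, rfl⟩
    exact mul_mem (inv_mem hz) (iv_center.pow i z hz))) (cm_inf_le z)
  exact (inv_mul_eq_one.1 (mem_bot.1 (this ▸ mem_cm' z))).symm

theorem not_two (hc : ∀ a b : H, ⁅a, b⁆ ∈ center H) : False := by
  have h1 := class_two m.odd m.pow m.top hc (fun z hz => m.zfix hz) fun h => by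
    have := m.eq_bot_center (iv_center.inf (iv_cm h)) inf_le_left
      ((inf_le_inf_right _ inf_le_right).trans (cm_inf_le h))
    rw [← mem_bot, ← this]
    have h1 := mem_cm' (x := x) h
    have h2 := iv_cm h _ h1
    exact mem_inf.2 ⟨hc _ _, mul_mem (mul_mem (mul_mem h1 h2) (inv_mem h1)) (inv_mem h2)⟩
  have h2 : (⊥ : Subgroup H) = ⊤ := eq_top_of m.top fun h => by
    rw [m.zfix (h1 ▸ mem_top h)]; simp
  exact m.ne fun c _ => (bot_le (a := DD x)) (h2 ▸ mem_top c)

variable [Finite H] [Fact p.Prime]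

theorem nonab [hN : N.Normal] (hi : Iv x N) (ht : N ≠ ⊤) (h1 : ⁅N, N⁆ ≤ center H)
    (h2 : N ⊓ centralizer (N : Set H) ≤ center H) : N ≤ center H := by
  have e1 := m.eq_bot_center ((iv_cmS N).inf iv_center) inf_le_right
    ((inf_le_inf_right _ inf_le_left).trans (m.sub N hi ht))
  have e2 : cmS x N ≤ center H := by
    refine le_trans (le_inf hi.cmS_le ?_) h2
    rw [le_centralizer_iff]
    intro n hn
    obtain ⟨k, hk, e⟩ := exists_fix_mul m.pow m.cop hn
    have a1 : k ∈ centralizer (cmS x N : Set H) := fun u hu => by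
      rw [← commutatorElement_eq_one_iff_mul_comm, ← mem_bot, ← e1]
      exact mem_inf.2 ⟨mul_mem (mul_mem (mul_mem hu hk) (inv_mem hu)) (inv_mem hk),
        h1 (commutator_mem_commutator (hi.cmS_le hu) (hi.cmS_le hk))⟩
    have a2 : n * k ∈ centralizer (cmS x N : Set H) := by
      have hc := mul_mem hn (hi.cmS_le hk)
      generalize n * k = c at e hc
      have : cmS x N ≤ centralizer {c} := cmS_le fun a ha i => by
        have := pow_fix (m.zfix (h1 (commutator_mem_commutator ha hc))) i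
        rw [commutatorElement_def] at this
        simp only [map_mul, map_inv, pow_fix e, mul_left_inj] at this
        rw [mem_centralizer_singleton_iff]
        calc a⁻¹ * (x ^ i) a * c = a⁻¹ * ((x ^ i) a * c * ((x ^ i) a)⁻¹) * (x ^ i) a := by group
          _ = _ := by rw [this]; group
      exact fun u hu => mem_centralizer_singleton_iff.1 (this hu)
    simpa using mul_mem a2 (inv_mem a1)
  intro n hn
  have e3 : ∀ a ∈ N, x a = a := fun a ha => (inv_mul_eq_one.1 (mem_bot.1 (e1 ▸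
    ⟨cm_le_cmS ha (mem_cm' a), e2 (cm_le_cmS ha (mem_cm' a))⟩))).symm
  have : centralizer {n} = ⊤ := eq_top_of m.top fun h => by
    have := e3 _ (hN.conj_mem n hn h)
    rw [map_mul, map_mul, e3 n hn, map_inv] at this
    rw [mem_centralizer_singleton_iff]
    calc h⁻¹ * x h * n = h⁻¹ * (x h * n * (x h)⁻¹) * x h := by group
      _ = _ := by rw [this]; group
  exact mem_center_iff.2 fun g => mem_centralizer_singleton_iff.1 (this ▸ mem_top g)

theorem exists_S [hN : N.Normal] (hi : Iv x N) (hab : ∀ a ∈ N, ∀ b ∈ N, a * b = b * a)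
    (hc : ¬ N ≤ center H) : ∃ S : Subgroup H, Iv x S ∧ (∀ T, Iv x T → N ≤ T → T ≠ ⊤ → T ≤ S) ∧
      ∀ M : Subgroup H, M.Normal → Iv x M → M ≤ S → M ≤ centralizer (N : Set H) := by
  have ht : N ≠ ⊤ := by
    rintro rfl
    exact hc fun a _ => mem_center_iff.2 fun g => hab g trivial a trivial
  have h0 : N ≠ ⊥ := by
    rintro rfl
    exact hc bot_le
  let W : Subgroup H :=
    { carrier := {w | ∃ d ∈ N ⊓ DD x, ∃ u ∈ cmS x N, w = d * u}
      one_mem' := ⟨1, one_mem _, 1, one_mem _, by simp⟩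
      mul_mem' := by
        rintro _ _ ⟨d, hd, u, hu, rfl⟩ ⟨e, he, v, hv, rfl⟩
        refine ⟨_, mul_mem hd he, _, mul_mem hu hv, ?_⟩
        rw [mul_assoc, ← mul_assoc u, hab u (hi.cmS_le hu) e he.1]; group
      inv_mem' := by
        rintro _ ⟨d, hd, u, hu, rfl⟩
        refine ⟨_, inv_mem hd, _, inv_mem hu, ?_⟩
        rw [hab d hd.1 u (hi.cmS_le hu), mul_inv_rev] }
  have w1 : N ⊓ DD x ≤ W := fun d hd => ⟨d, hd, 1, one_mem _, by simp⟩
  have w2 : cmS x N ≤ W := fun u hu => ⟨1, one_mem _, u, hu, by simp⟩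
  have wN : W ≤ N := by
    rintro _ ⟨d, hd, u, hu, rfl⟩
    exact mul_mem hd.1 (hi.cmS_le hu)
  have wi : Iv x W := by
    rintro _ ⟨d, hd, u, hu, rfl⟩
    exact ⟨d, hd, x u, iv_cmS N u hu, by rw [map_mul, mem_fx.1 (DD_le hd.2)]⟩
  have wD : W ⊓ fx x ≤ DD x := by
    rintro _ ⟨⟨d, hd, u, hu, rfl⟩, e⟩
    exact mul_mem hd.2 (m.sub N hi ht ⟨hu, by simpa using mul_mem (inv_mem (DD_le hd.2)) e⟩)
  have hx' : ∀ n ∈ N, ∃ n' ∈ N, x n' = n := fun n hn => by
    obtain ⟨k, e⟩ := m.odd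
    exact ⟨_, hi.pow (2 * k) _ hn, (pow_succ_apply _ _).symm.trans (by rw [← e, m.pow]; rfl)⟩
  let S : Subgroup H :=
    { carrier := {g | ∀ n ∈ N, ⁅g, n⁆ ∈ W}
      one_mem' := fun n _ => by simp
      mul_mem' := fun {a b} ha hb n hn => by
        have : ⁅a * b, n⁆ = ⁅a, ⁅b, n⁆⁆ * ⁅b, n⁆ * ⁅a, n⁆ := by
          simp only [commutatorElement_def]; group
        exact this ▸ mul_mem (mul_mem (ha _ (wN (hb n hn))) (hb n hn)) (ha n hn)
      inv_mem' := fun {a} ha n hn => by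
        have hn' := hN.conj_mem n hn a⁻¹
        have := ha _ hn'
        have e : ⁅a⁻¹, n⁆ = ⁅a, a⁻¹ * n * a⁻¹⁻¹⁆⁻¹ := by
          simp only [commutatorElement_def]; group
        exact e ▸ inv_mem this }
  have s1 : fx x ≤ S := fun c hc n hn => by
    obtain ⟨k, hk, e⟩ := exists_fix_mul m.pow m.cop hn
    have hn' := mul_mem hn (hi.cmS_le hk)
    obtain ⟨d, hd, e'⟩ := m.quo N hN hi h0 c hc
    have a1 : ⁅c, n * k⁆ ∈ W := w1 <| mem_inf.2 ⟨mul_mem (hN.conj_mem _ hn' c) (inv_mem hn'), by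
      have : ⁅c, n * k⁆ = d * (n * k * d⁻¹ * (n * k)⁻¹) := by
        calc ⁅c, n * k⁆ = d * (d⁻¹ * c * (n * k)) * c⁻¹ * (n * k)⁻¹ := by
              simp only [commutatorElement_def]; group
          _ = _ := by rw [hab _ e' _ hn']; group
      exact this ▸ mul_mem hd (conj_mem_DD e (inv_mem hd))⟩
    have a2 : c * k⁻¹ * c⁻¹ ∈ cmS x N := by
      have := map_cmS (x := x) (y := x) (MulAut.conj c : H →* H) (fun a => by simp [mem_fx.1 hc]) N
      refine closure_mono ?_ (this.le ⟨k⁻¹, inv_mem hk, rfl⟩)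
      rintro _ ⟨_, ⟨h, hh, rfl⟩, i, rfl⟩
      exact ⟨_, hN.conj_mem h hh c, i, rfl⟩
    have : ⁅c, n⁆ = ⁅c, n * k⁆ * (n * (k * (c * k⁻¹ * c⁻¹)) * n⁻¹) := by
      simp only [commutatorElement_def]; group
    exact this ▸ mul_mem a1 (w2 (le_norm_cmS N hn _ (mul_mem hk a2)))
  refine ⟨S, fun g hg n hn => ?_, fun T hT hNT hT' t ht => ?_, fun M hM hMi hMS => ?_⟩
  · obtain ⟨n, hn', rfl⟩ := hx' n hn
    rw [← map_commutatorElement]
    exact wi _ (hg n hn')
  · have s2 : cmS x T ≤ S := fun g hg n hn => by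
      have a1 : ⁅g, n⁆ ∈ cmS x T ⊓ N := mem_inf.2 ⟨by
        simpa [commutatorElement_def, mul_assoc] using
          mul_mem hg (le_norm_cmS T (hNT hn) _ (inv_mem hg)),
        mul_mem (hN.conj_mem _ hn g) (inv_mem hn)⟩
      obtain ⟨k, hk, e⟩ := exists_fix_mul m.pow m.cop a1
      have hk' := ((iv_cmS T).inf hi).cmS_le hk
      have a2 : k ∈ cmS x N := by
        refine closure_mono ?_ hk
        rintro _ ⟨h, hh, i, e⟩
        exact ⟨h, hh.2, i, e⟩
      have := mul_mem (w1 ⟨mul_mem a1.2 hk'.2, m.sub T hT hT' ⟨mul_mem a1.1 hk'.1, e⟩⟩)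
        (inv_mem (w2 a2))
      simpa using this
    obtain ⟨k, hk, e⟩ := exists_fix_mul m.pow m.cop ht
    simpa using mul_mem (s1 e) (inv_mem (s2 hk))
  · rw [← commutator_eq_bot_iff_le_centralizer]
    exact m.eq_bot inferInstance (hMi.comm hi) ((inf_le_inf_right _
      (commutator_le.2 fun g hg n hn => hMS hg n hn)).trans wD)

theorem ab [Group.IsSolvable H] [hN : N.Normal] (hi : Iv x N)
    (hab : ∀ a ∈ N, ∀ b ∈ N, a * b = b * a) (hm : ⁅N, ⊤⁆ = N ∨ ⁅N, ⊤⁆ ≤ center H) :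
    N ≤ center H := by
  by_contra hc
  obtain ⟨S, hS, h1, h2⟩ := m.exists_S hi hab hc
  have ht : N ≠ ⊤ := by
    rintro rfl
    exact hc fun a _ => mem_center_iff.2 fun g => hab g trivial a trivial
  have hS' : S ≠ ⊤ := by
    rintro rfl
    have := h2 ⊤ inferInstance iv_top le_rfl
    exact hc fun n hn => mem_center_iff.2 fun g => (this (mem_top g) n hn).symm
  have hd : commutator H ≤ S := le_sup_right.trans (h1 _ (hi.sup (iv_top.comm iv_top)) le_sup_left
    fun e => by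
      haveI : Nontrivial (H ⧸ N) := QuotientGroup.nontrivial_iff.2 ht
      refine (IsSolvable.commutator_lt_top_of_nontrivial (H ⧸ N)).ne ?_
      have := congrArg (map (QuotientGroup.mk' N)) e
      rwa [Subgroup.map_sup, (Subgroup.map_eq_bot_iff N).2 (QuotientGroup.ker_mk' N).ge, bot_sup_eq,
        commutator_def, map_commutator,
        map_top_of_surjective _ (QuotientGroup.mk'_surjective N)] at this)
  have hSn : S.Normal := ⟨fun s hs g => by
    simpa [commutatorElement_def] using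
      mul_mem (hd (commutator_mem_commutator (mem_top g) (mem_top s))) hs⟩
  have hSc := h2 S hSn hS le_rfl
  have h3 : ∀ h, N ⊔ cm x h = ⊤ → S ⊓ cm x h = ⊥ := fun h e =>
    m.eq_bot' (normal_of_sup e (fun g hg a ha => by rwa [hSc ha.1 g hg, mul_inv_cancel_right])
      fun g hg a ha => mem_inf.2 ⟨hSn.conj_mem a ha.1 g, mul_mem (mul_mem hg ha.2) (inv_mem hg)⟩)
      (hS.inf (iv_cm h)) inf_le_right
  have h4 : ∀ h, N ⊔ cm x h ≠ ⊤ → cm x h ≤ S := fun h e =>
    le_sup_right.trans (h1 _ (hi.sup (iv_cm h)) le_sup_left e)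
  obtain ⟨k, hk⟩ : ∃ k, N ⊔ cm x k = ⊤ := by
    by_contra! h5
    exact hS' (eq_top_of m.top fun h => h4 h (h5 h) (mem_cm' h))
  have dec : ∀ g : H, ∃ a ∈ N, ∃ b ∈ cm x k, a * b = g := fun g =>
    mem_sup_of_normal_left.1 (hk ▸ mem_top g)
  have hSN : S ≤ N := fun s hs => by
    obtain ⟨a, ha, b, hb, rfl⟩ := dec s
    have : b ∈ S ⊓ cm x k := ⟨by simpa using mul_mem (inv_mem (h1 N hi le_rfl ht ha)) hs, hb⟩
    rw [h3 k hk, mem_bot] at this
    simpa [this] using ha
  have h5 : ∀ h, ∀ a ∈ cm x h, ∀ b ∈ cm x h, a * b = b * a := fun h a ha b hb => by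
    by_cases e : N ⊔ cm x h = ⊤
    · rw [← commutatorElement_eq_one_iff_mul_comm, ← mem_bot, ← h3 h e]
      exact mem_inf.2 ⟨hd (commutator_mem_commutator trivial trivial),
        mul_mem (mul_mem (mul_mem ha hb) (inv_mem ha)) (inv_mem hb)⟩
    · exact hab a (hSN (h4 h e ha)) b (hSN (h4 h e hb))
  rcases hm with hm | hm
  · refine hc (le_of_eq_of_le (le_center_of m.odd m.pow m.top hi hab hm (fun a b n hn => ?_)
      fun h => h5 h _ (mem_cm' h) _ (by simpa [sq] using mem_cm (x := x) 2 h)) bot_le)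
    have := hSc (hd (commutator_mem_commutator (mem_top a⁻¹) (mem_top b⁻¹))) n hn
    calc a * b * n * (a * b)⁻¹ = b * a * (⁅a⁻¹, b⁻¹⁆ * n) * (a * b)⁻¹ := by
          simp only [commutatorElement_def]; group
      _ = _ := by rw [← this]; simp only [commutatorElement_def]; group
  · refine m.not_two fun g g' => ?_
    have hz : ∀ n ∈ N, ∀ g : H, (n : H ⧸ center H) * g = g * n := fun n hn g => by
      rw [← commutatorElement_eq_one_iff_mul_comm]
      exact (map_commutatorElement (QuotientGroup.mk' _) n g).symm.trans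
        ((QuotientGroup.eq_one_iff _).2 (hm (commutator_mem_commutator hn trivial)))
    obtain ⟨a, ha, b, hb, rfl⟩ := dec g
    obtain ⟨a', ha', b', hb', rfl⟩ := dec g'
    rw [← QuotientGroup.eq_one_iff]
    refine (map_commutatorElement (QuotientGroup.mk' _) _ _).trans ?_
    rw [commutatorElement_eq_one_iff_mul_comm]
    have e : Commute (b : H ⧸ center H) b' := congrArg QuotientGroup.mk (h5 k b hb b' hb')
    exact ((show Commute _ _ from hz a ha _).mul_left
      ((show Commute _ _ from hz a' ha' _).symm.mul_right e)).eq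

theorem false [Group.IsSolvable H] : False := by
  obtain ⟨N, ⟨hN, hi, hc⟩, hm⟩ := exists_minimal_of_wellFoundedLT
    (fun N : Subgroup H => N.Normal ∧ Iv x N ∧ ¬ N ≤ center H)
    ⟨⊤, inferInstance, iv_top, fun e => m.not_two fun _ _ => e trivial⟩
  have key : ∀ M : Subgroup H, M.Normal → Iv x M → M ≤ N → M = N ∨ M ≤ center H :=
    fun M h1 h2 h3 => or_iff_not_imp_right.2 fun h4 => h3.antisymm (hm ⟨h1, h2, h4⟩ h3)
  have h0 : N ≠ ⊥ := by
    rintro rfl
    exact hc bot_le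
  have h1 := (key _ inferInstance (hi.comm hi) (commutator_le_left _ _)).resolve_left
    (IsSolvable.commutator_lt_of_ne_bot h0).ne
  rcases key (N ⊓ centralizer (N : Set H)) inferInstance (fun t ht => ⟨hi t ht.1, fun n hn => by
    obtain ⟨k, e⟩ := m.odd
    have : x ((x ^ (2 * k)) n) = n := (pow_succ_apply _ _).symm.trans (by rw [← e, m.pow]; rfl)
    rw [← this, ← map_mul, ← map_mul, ht.2 _ (hi.pow _ _ hn)]⟩) inf_le_left with h2 | h2
  · exact hc (m.ab hi (fun a ha b hb => (h2.ge hb).2 a ha)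
      (key _ inferInstance (hi.comm iv_top) (commutator_le_left _ _)))
  · by_cases ht : N = ⊤
    · subst ht
      exact m.not_two fun a b => h1 (commutator_mem_commutator trivial trivial)
    · exact hc (m.nonab hi ht h1 h2)

end MC

theorem main_aux [Fact p.Prime] (hp : Odd p) (n : ℕ) : ∀ (H : Type u) [Group H] [Finite H]
    [Group.IsSolvable H] (x : MulAut H), Nat.card H = n → x ^ p = 1 → ¬ p ∣ Nat.card H →
    cmS x ⊤ ⊓ fx x ≤ DD x := by
  induction n using Nat.strong_induction_on with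
  | _ n ih =>
  intro H _ _ _ x hn hx hc
  have sub : ∀ T : Subgroup H, Iv x T → T ≠ ⊤ → cmS x T ⊓ fx x ≤ DD x := fun T hT ht => by
    let y : MulAut T := MulEquiv.ofBijective
      (((x : H →* H).comp T.subtype).codRestrict T fun t => hT t t.2)
      (Finite.injective_iff_bijective.1 fun a b e =>
        Subtype.ext (x.injective (congrArg Subtype.val e)))
    have hf : ∀ a, T.subtype (y a) = x (T.subtype a) := fun _ => rfl
    have h1 := ih _ (hn ▸ (card_le_card_group T).lt_of_ne fun e => ht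
      (eq_top_of_card_eq _ e) : Nat.card T < _) T y rfl
      (MulEquiv.ext fun a => Subtype.ext ((map_pow_apply _ hf p a).trans (by rw [hx]; rfl)))
      fun e => hc (e.trans (card_subgroup_dvd_card T))
    rintro c ⟨hc1, hc2⟩
    have h2 := map_cmS _ hf ⊤
    rw [← MonoidHom.range_eq_map, range_subtype] at h2
    obtain ⟨d, hd, rfl⟩ := h2.ge hc1
    exact map_DD _ hf ⟨d, h1 ⟨hd, Subtype.ext hc2⟩, rfl⟩
  by_cases ht : cmS x ⊤ = ⊤
  swap
  · refine le_trans (inf_le_inf_right _ (cmS_le fun h hh i => ?_)) (sub _ (iv_cmS ⊤) ht)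
    obtain ⟨k, hk, e⟩ := exists_fix_mul hx hc hh
    have := pow_fix e i
    rw [map_mul, ← eq_mul_inv_iff_mul_eq] at this
    have h1 := mem_cmS (x := x) (inv_mem hk) i
    rwa [this, ← mul_assoc, inv_mul_cancel_left, ← map_inv, ← inv_inv k, inv_inv k⁻¹]
  by_contra hne
  refine MC.false (p := p) (x := x) ⟨hp, hx, hc, ht, sub, fun M hM hi h0 c hcf => ?_,
    fun e => hne (inf_le_right.trans e)⟩
  let y : MulAut (H ⧸ M) := MulEquiv.ofBijective (QuotientGroup.map M M (x : H →* H) hi)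
    (Finite.surjective_iff_bijective.1 fun a => by
      obtain ⟨a, rfl⟩ := QuotientGroup.mk_surjective a
      obtain ⟨a, rfl⟩ := x.surjective a
      exact ⟨a, rfl⟩)
  have hf : ∀ a, QuotientGroup.mk' M (x a) = y (QuotientGroup.mk' M a) := fun _ => rfl
  have h1 := ih _ (by
      rw [← hn, ← M.index_mul_card]
      exact lt_mul_of_one_lt_right Nat.card_pos (one_lt_card_iff_ne_bot _ |>.2 h0))
    (H ⧸ M) y rfl (MulEquiv.ext fun a => by
      obtain ⟨a, rfl⟩ := QuotientGroup.mk_surjective a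
      exact (map_pow_apply _ hf p a).symm.trans (by rw [hx]; rfl))
    fun e => hc (e.trans M.index_dvd_card)
  have h2 : DD y ≤ (DD x).map (QuotientGroup.mk' M) := iSup_le fun a => by
    obtain ⟨a, rfl⟩ := QuotientGroup.mk'_surjective M a
    rw [← map_cm _ hf]
    rintro _ ⟨⟨l, hl, rfl⟩, e⟩
    obtain ⟨k, hk, e'⟩ := fix_coset hx hc (hi.inf (iv_cm a)) (t := l)
      (mem_inf.2 ⟨QuotientGroup.eq.1 (Eq.symm e), mul_mem (inv_mem hl) (iv_cm a l hl)⟩)
    exact ⟨l * k, cm_inf_le a ⟨mul_mem hl hk.2, e'⟩, QuotientGroup.mk_mul_of_mem l hk.1⟩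
  have h3 := map_cmS _ hf ⊤
  rw [ht, map_top_of_surjective _ (QuotientGroup.mk'_surjective M)] at h3
  obtain ⟨d, hd, e⟩ := h2 (h1 (x := QuotientGroup.mk' M c) (mem_inf.2 ⟨h3 ▸ mem_top _, by
    rw [mem_fx, ← hf, mem_fx.1 hcf]⟩))
  exact ⟨d, hd, QuotientGroup.eq.1 e⟩

theorem main [Finite H] [Group.IsSolvable H] [Fact p.Prime] (hp : Odd p) (hx : x ^ p = 1)
    (hc : ¬ p ∣ Nat.card H) : cmS x ⊤ ⊓ fx x = DD x :=
  (main_aux hp _ H x rfl hx hc).antisymm
    (iSup_le fun _ => inf_le_inf_right _ (cm_le_cmS trivial))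

end Cfsg.Lib.Flav
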