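import Cfsg.Agent.Lib.Extraspecial.Hall
import Cfsg.Agent.Lib.PGroup.RankOne

/-! A group `H` acting on an abelian `p'`-group `V`, with decomposition of `V` along an abelian
normal `p`-subgroup. -/

set_option autoImplicit false

namespace Cfsg.Lib.MovedVec

open Cfsg Subgroup
open scoped commutatorElement Pointwise

variable {H V : Type*} [Group H] [CommGroup V] [MulDistribMulAction H V] {p : ℕ}

/-- Fixed points of a subgroup. -/
def fix (V : Type*) [CommGroup V] [MulDistribMulAction H V] (D : Subgroup H) : Subgroup V where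
  carrier := {v | ∀ d ∈ D, d • v = v}
  one_mem' := fun d _ => smul_one d
  mul_mem' := fun ha hb d hd => by rw [smul_mul', ha d hd, hb d hd]
  inv_mem' := fun ha d hd => by rw [smul_inv', ha d hd]

theorem mem_fix {D : Subgroup H} {v : V} : v ∈ fix V D ↔ ∀ d ∈ D, d • v = v := Iff.rfl

theorem fix_anti {D E : Subgroup H} (h : D ≤ E) : fix V E ≤ fix V D := fun _ hv d hd => hv d (h hd)

theorem mem_fix_iff_le {D : Subgroup H} {v : V} : v ∈ fix V D ↔ D ≤ MulAction.stabilizer H v :=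
  Iff.rfl

theorem smul_mem_fix {D : Subgroup H} {v : V} (hv : v ∈ fix V D) (h : H) :
    h • v ∈ fix V (MulAut.conj h • D) := by
  rintro _ ⟨d, hd, rfl⟩
  change (h * d * h⁻¹) • h • v = _
  rw [mul_smul, inv_smul_smul, mul_smul, hv d hd]

theorem eq_one_of_pow_pow (hV : ∀ v : V, v ^ p = 1 → v = 1) {v : V} {k : ℕ} (h : v ^ p ^ k = 1) :
    v = 1 := by
  induction k generalizing v with
  | zero => simpa using h
  | succ k ih => exact hV _ (ih (by rwa [← pow_mul, ← pow_succ']))

theorem smul_prod_range {g : H} {n : ℕ} (hg : g ^ n = 1) (w : V) :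
    g • ∏ k ∈ Finset.range n, g ^ k • w = ∏ k ∈ Finset.range n, g ^ k • w := by
  rw [Finset.smul_prod']
  have h1 := Finset.prod_range_succ (fun k => g ^ k • w) n
  have h2 := Finset.prod_range_succ' (fun k => g ^ k • w) n
  simp only [hg, pow_zero] at h1 h2
  rw [h1] at h2
  rw [mul_right_cancel h2]
  exact Finset.prod_congr rfl fun k _ => by rw [pow_succ', mul_smul]

/-- A rank two elementary abelian group cannot act fixed point freely. -/
theorem exists_fixed (hp : p.Prime) (hV : ∀ v : V, v ^ p = 1 → v = 1) {y z : H} (hc : Commute y z)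
    (hy : y ^ p = 1) (hz : z ^ p = 1) {W : Subgroup V} (hWy : ∀ v ∈ W, y • v ∈ W)
    (hWz : ∀ v ∈ W, z • v ∈ W) (h1 : ∀ v ∈ W, z • v = v → v = 1) (hW : W ≠ ⊥) :
    ∃ j : ℕ, ∃ v ∈ W, v ≠ 1 ∧ (y * z ^ j) • v = v := by
  by_contra hcon
  push Not at hcon
  have hpow : ∀ (g : H), (∀ v ∈ W, g • v ∈ W) → ∀ (k : ℕ), ∀ v ∈ W, g ^ k • v ∈ W := by
    intro g hg k v hv
    induction k with
    | zero => simpa using hv
    | succ k ih => rw [pow_succ', mul_smul]; exact hg _ ih
  apply hW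
  rw [eq_bot_iff]
  intro w hw
  refine hV w ?_
  have h2 : ∀ j : ℕ, ∏ k ∈ Finset.range p, (y * z ^ j) ^ k • w = 1 := by
    intro j
    by_contra hne
    refine hcon j _ (prod_mem fun k _ => hpow _ (fun v hv => ?_) k w hw) hne (smul_prod_range ?_ w)
    · rw [mul_smul]; exact hWy _ (hpow z hWz j v hv)
    · rw [(hc.pow_right j).mul_pow, hy, ← pow_mul, mul_comm j, pow_mul, hz, one_pow, mul_one]
  have h3 : ∀ k ∈ Finset.range p, k ≠ 0 → ∏ j ∈ Finset.range p, (y * z ^ j) ^ k • w = 1 := by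
    intro k hk hk0
    have h4 : ∏ j ∈ Finset.range p, (z ^ k) ^ j • w = 1 := by
      refine h1 _ (prod_mem fun j _ => hpow _ (hpow z hWz k) j w hw) ?_
      have h5 := smul_prod_range (g := z ^ k) (n := p)
        (by rw [← pow_mul, mul_comm, pow_mul, hz, one_pow]) w
      have h6 : z ∈ zpowers (z ^ k) := mem_zpowers_pow_iff.2 (Nat.Coprime.coprime_dvd_right
        (orderOf_dvd_of_pow_eq_one hz) ((Nat.coprime_of_lt_prime hk0 (Finset.mem_range.1 hk) hp).symm))
      exact (zpowers_le (H := MulAction.stabilizer H _)).2 h5 h6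
    rw [← smul_one (y ^ k), ← h4, Finset.smul_prod']
    refine Finset.prod_congr rfl fun j _ => ?_
    rw [(hc.pow_right j).mul_pow, mul_smul, ← pow_mul, ← pow_mul, mul_comm j]
  have h7 : ∏ j ∈ Finset.range p, ∏ k ∈ Finset.range p, (y * z ^ j) ^ k • w = 1 :=
    Finset.prod_eq_one fun j _ => h2 j
  rw [Finset.prod_comm, Finset.prod_eq_single 0 h3 (by simp [hp.ne_zero])] at h7
  simpa using h7

/-- The norm map of a finite subgroup. -/
noncomputable def nm (D : Subgroup H) [Finite D] : V →* V :=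
  haveI := Fintype.ofFinite D
  { toFun := fun v => ∏ d : D, (d : H) • v
    map_one' := by simp
    map_mul' := fun a b => by simp [smul_mul', Finset.prod_mul_distrib] }

theorem nm_smul (D : Subgroup H) [Finite D] {d : H} (hd : d ∈ D) (v : V) :
    nm D (d • v) = nm D v := by
  letI := Fintype.ofFinite D
  change ∏ e : D, (e : H) • d • v = ∏ e : D, (e : H) • v
  rw [← Equiv.prod_comp (Equiv.mulRight (⟨d, hd⟩ : D)) (fun e : D => (e : H) • v)]
  exact Finset.prod_congr rfl fun e _ => by simp [mul_smul]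

theorem nm_mem_fix (D : Subgroup H) [Finite D] (v : V) : nm D v ∈ fix V D := by
  letI := Fintype.ofFinite D
  intro d hd
  change d • ∏ e : D, (e : H) • v = ∏ e : D, (e : H) • v
  rw [Finset.smul_prod', ← Equiv.prod_comp (Equiv.mulLeft (⟨d, hd⟩ : D)) (fun e : D => (e : H) • v)]
  exact Finset.prod_congr rfl fun e _ => by simp [mul_smul]

theorem nm_of_mem_fix (D : Subgroup H) [Finite D] {v : V} (hv : v ∈ fix V D) :
    nm D v = v ^ Nat.card D := by
  letI := Fintype.ofFinite D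
  change ∏ e : D, (e : H) • v = _
  rw [Finset.prod_congr rfl fun (e : D) _ => hv e e.2, Finset.prod_const, Nat.card_eq_fintype_card]
  rfl

theorem nm_mem (D : Subgroup H) [Finite D] {W : Subgroup V} (hW : ∀ d ∈ D, ∀ v ∈ W, d • v ∈ W)
    {v : V} (hv : v ∈ W) : nm D v ∈ W := by
  letI := Fintype.ofFinite D
  exact prod_mem fun e _ => hW e e.2 v hv

theorem smul_nm (D : Subgroup H) [Finite D] [hD : D.Normal] (h : H) (v : V) :
    h • nm D v = nm D (h • v) := by
  letI := Fintype.ofFinite D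
  change h • ∏ e : D, (e : H) • v = ∏ e : D, (e : H) • h • v
  rw [Finset.smul_prod', ← Equiv.prod_comp (MulAut.conjNormal h).toEquiv
    (fun e : D => (e : H) • h • v)]
  exact Finset.prod_congr rfl fun e _ => by simp [mul_smul]

/-- Maximal subgroups of `B` with nontrivial fixed points. -/
def Comp (V : Type*) [CommGroup V] [MulDistribMulAction H V] (B : Subgroup H) : Type _ :=
  {D : Subgroup H // D ≤ B ∧ fix V D ≠ ⊥ ∧ ∀ E : Subgroup H, D ≤ E → E ≤ B → fix V E ≠ ⊥ → E = D}

instance finite_comp [Finite H] (B : Subgroup H) : Finite (Comp V B) := by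
  unfold Comp; infer_instance

theorem exists_comp [Finite H] {B D : Subgroup H} (h1 : D ≤ B) (h2 : fix V D ≠ ⊥) :
    ∃ E : Comp V B, D ≤ E.1 := by
  obtain ⟨E, h3, h4⟩ := Finite.exists_le_maximal (p := fun E : Subgroup H => E ≤ B ∧ fix V E ≠ ⊥)
    (a := D) ⟨h1, h2⟩
  exact ⟨⟨E, h4.1.1, h4.1.2, fun F a b c => le_antisymm (h4.2 ⟨b, c⟩ a) a⟩, h3⟩

theorem Comp.mem {B : Subgroup H} (D : Comp V B) {c : H} (hc : c ∈ B) {v : V} (hv : v ∈ fix V D.1)
    (h1 : v ≠ 1) (h : c • v = v) : c ∈ D.1 := by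
  have := D.2.2.2 (D.1 ⊔ zpowers c) le_sup_left (sup_le D.2.1 (zpowers_le.2 hc)) fun e =>
    h1 (mem_bot.1 (e ▸ mem_fix_iff_le.2 (sup_le hv (zpowers_le.2 h))))
  exact this ▸ mem_sup_right (mem_zpowers c)

theorem fix_conj_ne_bot {D : Subgroup H} (hD : fix V D ≠ ⊥) (h : H) :
    fix V (MulAut.conj h • D) ≠ ⊥ := fun e => hD (by
  rw [eq_bot_iff]
  intro v hv
  have := smul_mem_fix hv h
  rw [e, mem_bot, smul_eq_iff_eq_inv_smul, smul_one] at this
  exact this)

theorem conj_le {B D : Subgroup H} [hB : B.Normal] (h1 : D ≤ B) (h : H) : MulAut.conj h • D ≤ B := by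
  rintro _ ⟨d, hd, rfl⟩
  exact hB.conj_mem _ (h1 hd) h

/-- The conjugation action on components. -/
instance compAction (B : Subgroup H) [B.Normal] : MulAction H (Comp V B) where
  smul h D := ⟨MulAut.conj h • D.1, conj_le D.2.1 h, fix_conj_ne_bot D.2.2.1 h, fun E a b c => by
    have := D.2.2.2 (MulAut.conj h⁻¹ • E)
      (by rw [map_inv, ← pointwise_smul_le_pointwise_smul_iff (a := MulAut.conj h), smul_inv_smul]
          exact a) (conj_le b _) (fix_conj_ne_bot c _)
    rw [← this, map_inv, smul_inv_smul]⟩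
  one_smul D := Subtype.ext (by change MulAut.conj (1 : H) • D.1 = _; rw [map_one, one_smul])
  mul_smul a b D := Subtype.ext (by
    change MulAut.conj (a * b) • D.1 = MulAut.conj a • MulAut.conj b • D.1
    rw [map_mul, mul_smul])

theorem smul_mem_fix_of_comm {B D : Subgroup H} (hB : ∀ x ∈ B, ∀ y ∈ B, x * y = y * x) (hD : D ≤ B)
    {b : H} (hb : b ∈ B) {v : V} (hv : v ∈ fix V D) : b • v ∈ fix V D := fun d hd => by
  rw [← mul_smul, hB d (hD hd) b hb, mul_smul, hv d hd]

/-- Independence of the components. -/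
theorem indep [Finite H] [Fact p.Prime] (hV : ∀ v : V, v ^ p = 1 → v = 1) {B : Subgroup H}
    (hBp : IsPGroup p B) (hB : ∀ x ∈ B, ∀ y ∈ B, x * y = y * x) [Fintype (Comp V B)]
    {w w' : Comp V B → V} (hw : ∀ D, w D ∈ fix V D.1) (hw' : ∀ D, w' D ∈ fix V D.1)
    (h : ∏ D, w D = ∏ D, w' D) : w = w' := by
  funext D
  have key : ∀ u : Comp V B → V, (∀ D, u D ∈ fix V D.1) → nm D.1 (∏ E, u E) = u D ^ Nat.card D.1 := by
    intro u hu
    rw [map_prod, Finset.prod_eq_single D _ (by simp), nm_of_mem_fix _ (hu D)]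
    intro E _ hE
    by_contra hne
    have h1 : nm D.1 (u E) ∈ fix V E.1 :=
      nm_mem _ (fun d hd v hv => smul_mem_fix_of_comm hB E.2.1 (D.2.1 hd) hv) (hu E)
    have h2 : fix V (D.1 ⊔ E.1) ≠ ⊥ := fun e =>
      hne (mem_bot.1 (e.le (mem_fix_iff_le.2 (sup_le (nm_mem_fix _ _) h1))))
    exact hE (Subtype.ext ((E.2.2.2 _ le_sup_right (sup_le D.2.1 E.2.1) h2).symm.trans
      (D.2.2.2 _ le_sup_left (sup_le D.2.1 E.2.1) h2)))
  obtain ⟨k, hk⟩ := IsPGroup.iff_card.1 (hBp.to_le D.2.1)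
  have h1 : w D ^ p ^ k = w' D ^ p ^ k := by rw [← hk, ← key w hw, ← key w' hw', h]
  exact div_eq_one.1 (eq_one_of_pow_pow hV (k := k) (by rw [div_pow, h1, div_self']))

/-- A stabilizing element permutes the coordinates. -/
theorem smul_eq_of_fixed [Finite H] [Fact p.Prime] (hV : ∀ v : V, v ^ p = 1 → v = 1)
    {B : Subgroup H} [B.Normal] (hBp : IsPGroup p B) (hB : ∀ x ∈ B, ∀ y ∈ B, x * y = y * x)
    [Fintype (Comp V B)] {w : Comp V B → V} (hw : ∀ D, w D ∈ fix V D.1) {c : H}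
    (h : c • ∏ D, w D = ∏ D, w D) (D : Comp V B) :
    c • w D = w (c • D) := by
  have h1 := indep hV hBp hB (w := fun E => c • w (c⁻¹ • E)) (w' := w)
    (fun E => by
      have := smul_mem_fix (hw (c⁻¹ • E)) c
      rwa [show MulAut.conj c • (c⁻¹ • E).1 = E.1 from congrArg Subtype.val (smul_inv_smul c E)]
        at this) hw (by
      rw [← h, Finset.smul_prod']
      exact Equiv.prod_comp (MulAction.toPerm c⁻¹) (fun E => c • w E))
  have := congrFun h1 (c • D)
  simpa only [inv_smul_smul] using this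

theorem coe_smul_comp {B : Subgroup H} [B.Normal] (h : H) (D : Comp V B) :
    (h • D).1 = MulAut.conj h • D.1 := rfl

theorem mem_smul_comp {B : Subgroup H} [B.Normal] {h x : H} {D : Comp V B} :
    x ∈ (h • D).1 ↔ h⁻¹ * x * h ∈ D.1 := by
  rw [coe_smul_comp, mem_pointwise_smul_iff_inv_smul_mem]
  simp

theorem exists_vec {B : Subgroup H} :
    ∃ w : Comp V B → V, ∀ D, w D ∈ fix V D.1 ∧ w D ≠ 1 := by
  have : ∀ D : Comp V B, ∃ v, v ∈ fix V D.1 ∧ v ≠ 1 := fun D => by
    obtain ⟨⟨v, h1⟩, h2⟩ := (ne_bot_iff_exists_ne_one).1 D.2.2.1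
    exact ⟨v, h1, fun e => h2 (Subtype.ext e)⟩
  choose w hw using this
  exact ⟨w, hw⟩

/-- An extraspecial group of odd exponent `p` has a regular orbit. -/
theorem exists_regular [Finite H] [hp : Fact p.Prime] (hp2 : p ≠ 2) (hV : ∀ v : V, v ^ p = 1 → v = 1)
    [Nontrivial V] (hexp : ∀ x : H, x ^ p = 1) (hZ : Nat.card (center H) = p)
    (hc : ∀ x y : H, ⁅x, y⁆ ∈ center H)
    (hfpf : ∀ z ∈ center H, z ≠ 1 → ∀ v : V, z • v = v → v = 1) :
    ∃ v : V, ∀ c ∉ center H, c • v ≠ v := by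
  classical
  have hH : IsPGroup p H := fun x => ⟨1, by rw [pow_one, hexp]⟩
  haveI := hH.isNilpotent
  haveI : Group.IsNilpotent (⊤ : Subgroup H) := inferInstance
  obtain ⟨A, hZA, -, hAn, hAc, hA⟩ := Cfsg.Lib.PGroup.exists_invariant_self_centralizing
    (P := (⊤ : Subgroup H)) (S := ⊤) (E := center H) le_rfl le_normalizer inferInstance le_top
    (by rw [normalizer_eq_top])
  haveI : A.Normal := normalizer_eq_top_iff.1 (eq_top_iff.2 hAn)
  rw [top_inf_eq] at hA
  have hB : ∀ x ∈ A, ∀ y ∈ A, x * y = y * x := fun x hx y hy => (hA.ge hy) x hx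
  have hDZ : ∀ (D : Comp V A), ∀ z ∈ center H, z ∈ D.1 → z = 1 := by
    intro D z hz hzD
    by_contra h
    exact D.2.2.1 (eq_bot_iff.2 fun v hv => hfpf z hz h v (hv z hzD))
  obtain ⟨z, hz, hz1⟩ : ∃ z ∈ center H, z ≠ 1 := by
    obtain ⟨⟨v, h1⟩, h2⟩ := (ne_bot_iff_exists_ne_one).1 ((one_lt_card_iff_ne_bot (center H)).1
      (hZ ▸ hp.out.one_lt))
    exact ⟨v, h1, fun e => h2 (Subtype.ext e)⟩
  have hstab : ∀ (D : Comp V A) (x : H), x • D = D → x ∈ A := by
    intro D x hx
    rw [← hA]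
    intro y hy
    obtain ⟨j, v, h1, h2, h3⟩ := exists_fixed hp.out hV (y := y) (z := z)
      (mem_center_iff.1 hz y) (hexp y) (hexp z) (W := fix V D.1)
      (fun v hv => smul_mem_fix_of_comm hB D.2.1 hy hv)
      (fun v hv => smul_mem_fix_of_comm hB D.2.1 (hZA hz) hv) (fun v _ => hfpf z hz hz1 v) D.2.2.1
    have h4 := D.mem (mul_mem hy (pow_mem (hZA hz) j)) h1 h2 h3
    have h5 : x⁻¹ * (y * z ^ j) * x ∈ D.1 := mem_smul_comp.1 (hx.symm ▸ h4)
    have h6 := hDZ D _ (hc x⁻¹ (y * z ^ j)) (by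
      rw [commutatorElement_def, inv_inv]
      exact mul_mem h5 (inv_mem h4))
    have h7 : Commute x (y * z ^ j) :=
      Commute.inv_left_iff.1 (commutatorElement_eq_one_iff_commute.1 h6)
    have h8 : Commute x (z ^ j) := mem_center_iff.1 (pow_mem hz j) x
    have := h7.mul_right h8.inv_right
    rw [mul_inv_cancel_right] at this
    exact this.symm.eq
  obtain ⟨D₀, -⟩ := exists_comp (V := V) (B := A) (D := ⊥) bot_le (by
    rw [show fix V (⊥ : Subgroup H) = ⊤ from eq_top_iff.2 fun v _ d hd => by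
      rw [mem_bot.1 hd, one_smul]]
    exact top_ne_bot)
  obtain ⟨w₀, hw₀⟩ := exists_vec (V := V) (B := A)
  haveI := Fintype.ofFinite (Comp V A)
  refine ⟨∏ D, if D = D₀ then 1 else w₀ D, fun c hcZ h => ?_⟩
  have key := smul_eq_of_fixed hV (hH.to_subgroup A) hB
    (w := fun D => if D = D₀ then 1 else w₀ D) (fun D => by
      by_cases e : D = D₀
      · simp only [e, if_true]; exact one_mem _
      · simp only [e, if_false]; exact (hw₀ D).1) h
  have h1 : c • D₀ = D₀ := by
    by_contra e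
    have := key D₀
    simp only [if_true, e, if_false, smul_one] at this
    exact (hw₀ _).2 this.symm
  have hcA := hstab _ _ h1
  have h2 : ∀ D : Comp V A, D ≠ D₀ → c ∈ D.1 := by
    intro D hD
    have h3 : c • D = D := Subtype.ext (Subgroup.ext fun y => by
      rw [mem_smul_comp]
      constructor
      · intro hy
        have h4 : y ∈ A := by
          have := Subgroup.Normal.conj_mem ‹A.Normal› _ (D.2.1 hy) c
          simpa [mul_assoc] using this
        rwa [mul_assoc, hB y h4 c hcA, inv_mul_cancel_left] at hy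
      · intro hy
        rwa [mul_assoc, hB y (D.2.1 hy) c hcA, inv_mul_cancel_left])
    have := key D
    simp only [h3, hD, if_false] at this
    exact D.mem hcA (hw₀ D).1 (hw₀ D).2 this
  rw [mem_center_iff] at hcZ
  push Not at hcZ
  obtain ⟨x, hx⟩ := hcZ
  have hxA : x ∉ A := fun e => hx (hB x e c hcA)
  have h3 : c ∈ (x • D₀).1 := h2 _ fun e => hxA (hstab _ _ e)
  have h4 : c ∈ (x • x • D₀).1 := h2 _ fun e => hxA (by
    rw [← mul_smul] at e
    obtain ⟨k, hk⟩ := hp.out.odd_of_ne_two hp2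
    have h5 := pow_mem (hstab _ _ e) k
    have h6 : x = ((x * x) ^ k)⁻¹ := by
      rw [eq_inv_iff_mul_eq_one, ← sq, ← pow_mul, ← pow_succ', ← hk, hexp]
    rw [h6]
    exact inv_mem h5)
  have h5 := hDZ (x • D₀) _ (hc x⁻¹ c) (by
    rw [commutatorElement_def, inv_inv]
    exact mul_mem (mem_smul_comp.1 h4) (inv_mem h3))
  exact hx (Commute.inv_left_iff.1 (commutatorElement_eq_one_iff_commute.1 h5))

end Cfsg.Lib.MovedVec
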