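import Cfsg.Agent.Lib.Coprime.MovedVec
import Cfsg.Agent.Lib.Core.MinNormal

/-! If `p` is odd and `a` lies in a normal `p`-subgroup of `H` acting on an abelian `p'`-group `V`,
and `a` acts nontrivially, then some vector is moved by every conjugate of `a`. -/

set_option autoImplicit false

namespace Cfsg.Lib.MovedVec

open Cfsg Subgroup
open scoped commutatorElement Pointwise

universe u

/-- The statement proved by induction on `|V|`. -/
def Claim (p : ℕ) (V : Type u) [CommGroup V] : Prop :=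
  ∀ (H : Type u) [Group H] [Finite H] [MulDistribMulAction H V] (R : Subgroup H) [R.Normal],
    (∀ r ∈ R, ∃ k : ℕ, ∀ v : V, r ^ p ^ k • v = v) → ∀ a ∈ R, (∃ v : V, a • v ≠ v) →
    ∃ v : V, ∀ h : H, (h * a * h⁻¹) • v ≠ v

variable {p : ℕ} {H V : Type u} [Group H] [CommGroup V] [MulDistribMulAction H V]

/-- Restriction of the action to an invariant subgroup. -/
abbrev resAction (S : Subgroup H) (W : Subgroup V) (h : ∀ s ∈ S, ∀ w ∈ W, s • w ∈ W) :
    MulDistribMulAction S W where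
  smul s w := ⟨(s : H) • (w : V), h s s.2 w w.2⟩
  one_smul w := Subtype.ext (one_smul H (w : V))
  mul_smul a b w := Subtype.ext (mul_smul (a : H) (b : H) (w : V))
  smul_one s := Subtype.ext (smul_one (s : H))
  smul_mul s a b := Subtype.ext (smul_mul' (s : H) (a : V) (b : V))

theorem claim_res [Finite H] {S R : Subgroup H} [R.Normal] (hR : IsPGroup p R) {W : Subgroup V}
    (h : ∀ s ∈ S, ∀ w ∈ W, s • w ∈ W) (hW : Claim p W) {b : H} (hb : b ∈ R) (hbS : b ∈ S) {w : V}
    (hw : w ∈ W) (hbw : b • w ≠ w) : ∃ w ∈ W, ∀ s ∈ S, (s * b * s⁻¹) • w ≠ w := by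
  letI := resAction S W h
  obtain ⟨v, hv⟩ := hW S (R.subgroupOf S) (fun r hr => by
    obtain ⟨k, hk⟩ := hR ⟨r, hr⟩
    refine ⟨k, fun v => ?_⟩
    rw [show r ^ p ^ k = 1 from Subtype.ext (congrArg Subtype.val hk :), one_smul])
    ⟨b, hbS⟩ hb ⟨⟨w, hw⟩, fun e => hbw (congrArg Subtype.val e)⟩
  exact ⟨v, v.2, fun s hs e => hv ⟨s, hs⟩ (Subtype.ext e)⟩

theorem commutator_mem_center_of_cyclic {G : Type*} [Group G] [Finite G] [Nontrivial G]
    [Fact p.Prime] (hp2 : p ≠ 2) (hG : IsPGroup p G)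
    (hs : ∀ A : Subgroup G, A.Characteristic → IsMulCommutative A → IsCyclic A) (x y : G) :
    ⁅x, y⁆ ∈ center G := by
  obtain ⟨-, E, h1, -, h2, h3⟩ := Cfsg.Lib.ES.hall_aux hG hs
  haveI := h3.resolve_right fun h => hp2 h.1
  have hC : centralizer (E : Set G) ≤ center G := by
    rw [← centralizer_univ, ← coe_top, le_centralizer_iff, ← h2]
    exact sup_le (le_centralizer_iff.1 le_rfl) (le_centralizer _)
  have hE : ⁅E, E⁆ ≤ center G := by
    rcases h1 with rfl | h1
    · exact (commutator_le_sup _ _).trans ((sup_idem _).le.trans (closure_le _ |>.2 fun x hx => hx.1))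
    · refine le_trans ?_ hC
      rw [← map_subtype_commutator, h1.1.2.2]
      rintro _ ⟨z, hz, rfl⟩ e he
      exact congrArg Subtype.val (mem_center_iff.1 hz ⟨e, he⟩)
  have h4 : E ⊔ center G = ⊤ := eq_top_iff.2 (h2.ge.trans (sup_le_sup_left hC _))
  obtain ⟨a, ha, b, hb, rfl⟩ := mem_sup_of_normal_right.1 (h4.ge (mem_top x))
  obtain ⟨c, hc, d, hd, rfl⟩ := mem_sup_of_normal_right.1 (h4.ge (mem_top y))
  have : ⁅a * b, c * d⁆ = ⁅a, c⁆ := by
    have e1 : ∀ g, b * g = g * b := fun g => (mem_center_iff.1 hb g).symm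
    have e2 : ∀ g, d * g = g * d := fun g => (mem_center_iff.1 hd g).symm
    calc ⁅a * b, c * d⁆ = a * (b * (c * d)) * b⁻¹ * a⁻¹ * d⁻¹ * c⁻¹ := by
          rw [commutatorElement_def]; group
      _ = a * c * (d * a⁻¹) * d⁻¹ * c⁻¹ := by rw [e1]; group
      _ = ⁅a, c⁆ := by rw [e2, commutatorElement_def]; group
  rw [this]
  exact hE (commutator_mem_commutator ha hc)

theorem step_comp [Finite H] [Finite V] [hp : Fact p.Prime] (hp2 : p ≠ 2)
    (hV : ∀ v : V, v ^ p = 1 → v = 1)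
    (ih : ∀ (W : Type u) [CommGroup W] [Finite W], (∀ w : W, w ^ p = 1 → w = 1) →
      Nat.card W < Nat.card V → Claim p W)
    (hf : ∀ h : H, (∀ v : V, h • v = v) → h = 1)
    (hirr : ∀ W : Subgroup V, (∀ (h : H), ∀ w ∈ W, h • w ∈ W) → W ≠ ⊤ → W = ⊥)
    {R B : Subgroup H} [R.Normal] [B.Normal] (hR : IsPGroup p R) (hBR : B ≤ R)
    (hB : ∀ x ∈ B, ∀ y ∈ B, x * y = y * x) (hfB : fix V B = ⊥) {b : H} (hb : b ∈ B) (hb1 : b ≠ 1)
    (hb2 : fix V (zpowers b) ≠ ⊥) {a : H} (ha : a ∈ R) (ha1 : a ≠ 1) :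
    ∃ v : V, ∀ h : H, (h * a * h⁻¹) • v ≠ v := by
  classical
  have hBp := hR.to_le hBR
  obtain ⟨w₀, hw₀⟩ := exists_vec (V := V) (B := B)
  haveI := Fintype.ofFinite (Comp V B)
  obtain ⟨D₁, hD₁⟩ := exists_comp (zpowers_le.2 hb) hb2
  by_cases hmove : ∃ D : Comp V B, a • D ≠ D
  · letI : MulAction H (Comp V B → ℤˣ) := arrowAction
    letI : MulDistribMulAction H (Comp V B → ℤˣ) := arrowMulDistribMulAction
    have hsm : ∀ (h : H) (f : Comp V B → ℤˣ) (D : Comp V B), (h • f) D = f (h⁻¹ • D) :=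
      fun _ _ _ => rfl
    let F : (Comp V B → ℤˣ) → Comp V B → V := fun f D => if f D = 1 then 1 else w₀ D
    have hF : ∀ f D, F f D ∈ fix V D.1 := fun f D => by
      by_cases e : f D = 1
      · simp only [F, e, if_true]; exact one_mem _
      · simp only [F, e, if_false]; exact (hw₀ D).1
    have hF1 : ∀ f D, F f D = 1 ↔ f D = 1 := fun f D => by
      by_cases e : f D = 1
      · simp [F, e]
      · simp [F, e, (hw₀ D).2]
    have hu : ∀ x y : ℤˣ, (x = 1 ↔ y = 1) → x = y := by decide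
    have hlt : Nat.card (Comp V B → ℤˣ) < Nat.card V := by
      obtain ⟨d, hd, hd2⟩ : ∃ d ∈ B, d • w₀ D₁ ≠ w₀ D₁ := by
        by_contra hcon
        push Not at hcon
        exact (hw₀ D₁).2 (mem_bot.1 (hfB.le hcon))
      haveI := Fintype.ofFinite V
      rw [Nat.card_eq_fintype_card, Nat.card_eq_fintype_card]
      refine Fintype.card_lt_of_injective_not_surjective (fun f => ∏ D, F f D)
        (fun f g e => funext fun D => hu _ _ ?_) fun hs => ?_
      · rw [← hF1, ← hF1, indep hV hBp hB (hF f) (hF g) e]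
      · obtain ⟨f, e⟩ := hs (d • w₀ D₁)
        have h1 := indep hV hBp hB (hF f) (w' := fun D => if D = D₁ then d • w₀ D₁ else 1)
          (fun D => by
            by_cases e : D = D₁
            · simp only [e, if_true]; exact smul_mem_fix_of_comm hB D₁.2.1 hd (hw₀ D₁).1
            · simp only [e, if_false]; exact one_mem _) (by simpa using e)
        have h2 := congrFun h1 D₁
        simp only [if_true, F] at h2
        split_ifs at h2
        · rw [eq_comm, smul_eq_iff_eq_inv_smul, smul_one] at h2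
          exact (hw₀ D₁).2 h2
        · exact hd2 h2.symm
    obtain ⟨D, hD⟩ := hmove
    obtain ⟨f, hf⟩ := ih (Comp V B → ℤˣ) (fun f hf => funext fun D => by
      have h1 : f D ^ p = 1 := congrFun hf D
      rcases Int.units_eq_one_or (f D) with e | e
      · exact e
      · rw [e, (hp.out.odd_of_ne_two hp2).neg_one_pow] at h1
        exact absurd h1 (by decide)) hlt H R (fun r hr => by
        obtain ⟨k, hk⟩ := hR ⟨r, hr⟩
        exact ⟨k, fun v => by
          rw [show r ^ p ^ k = 1 from (congrArg Subtype.val hk :), one_smul]⟩) a ha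
      ⟨fun E => if E = D then -1 else 1, fun e => by
        have := congrFun e (a • D)
        rw [hsm, inv_smul_smul] at this
        simp only [if_true, hD, if_false] at this
        exact absurd this (by decide)⟩
    refine ⟨∏ D, F f D, fun h e => hf h (funext fun E => ?_)⟩
    have := smul_eq_of_fixed hV hBp hB (hF f) e ((h * a * h⁻¹)⁻¹ • E)
    rw [smul_inv_smul] at this
    rw [hsm]
    refine hu _ _ ?_
    rw [← hF1, ← hF1, ← this, smul_eq_iff_eq_inv_smul, smul_one]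
  push Not at hmove
  obtain ⟨D₀, w, hw, haw⟩ : ∃ D₀ : Comp V B, ∃ w ∈ fix V D₀.1, a • w ≠ w := by
    by_contra hcon
    push Not at hcon
    have h1 : closure (Set.range fun h : H => h • w₀ D₁) = ⊤ := by
      by_contra h1
      have h2 := hirr _ (fun h w hw => by
        induction hw using closure_induction with
        | mem x hx =>
          obtain ⟨g, rfl⟩ := hx
          exact subset_closure ⟨h * g, mul_smul _ _ _⟩
        | one => rw [smul_one]; exact one_mem _
        | mul x y _ _ h1 h2 => rw [smul_mul']; exact mul_mem h1 h2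
        | inv x _ h1 => rw [smul_inv']; exact inv_mem h1) h1
      exact (hw₀ D₁).2 (mem_bot.1 (h2.le (subset_closure ⟨1, one_smul _ _⟩)))
    have h2 : closure (Set.range fun h : H => h • w₀ D₁) ≤ fix V (zpowers a) := by
      rw [closure_le]
      rintro _ ⟨h, rfl⟩
      exact mem_fix_iff_le.2 (zpowers_le.2 (hcon (h • D₁) _ (smul_mem_fix (hw₀ D₁).1 h)))
    exact ha1 (hf a fun v => h2 (h1.ge (mem_top v)) a (mem_zpowers a))
  have hne : fix V D₀.1 ≠ ⊤ := by
    intro e
    have h1 : D₀.1 = ⊥ := eq_bot_iff.2 fun d hd => hf d fun v => e.ge (mem_top v) d hd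
    have h2 := D₀.2.2.2 (zpowers b) (h1.le.trans bot_le) (zpowers_le.2 hb) hb2
    exact hb1 (mem_bot.1 ((h2.trans h1).le (mem_zpowers b)))
  obtain ⟨w₁, hw₁, hw₂⟩ := claim_res (S := MulAction.stabilizer H D₀) hR (W := fix V D₀.1)
    (fun s hs w hw => by
      have := smul_mem_fix hw s
      rwa [← coe_smul_comp, hs] at this)
    (ih _ (fun w hw => Subtype.ext (hV w (congrArg Subtype.val hw)))
      (Finite.card_subtype_lt (x := _) (Classical.choose_spec
        (not_forall.1 fun h => hne ((eq_top_iff' _).2 h))))) ha (hmove D₀) hw haw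
  have hch : ∀ D : Comp V B, ∃ v ∈ fix V D.1, ∀ h : H, h • D₀ = D →
      ∃ t : H, t • D₀ = D ∧ v = t • w₁ := by
    intro D
    by_cases e : ∃ t : H, t • D₀ = D
    · obtain ⟨t, rfl⟩ := e
      exact ⟨t • w₁, smul_mem_fix hw₁ t, fun _ _ => ⟨t, rfl, rfl⟩⟩
    · exact ⟨1, one_mem _, fun h e' => absurd ⟨h, e'⟩ e⟩
  choose u hu1 hu2 using hch
  refine ⟨∏ D, u D, fun h e => ?_⟩
  have h1 := smul_eq_of_fixed hV hBp hB hu1 e (h • D₀)
  obtain ⟨t, ht1, ht2⟩ := hu2 (h • D₀) h rfl
  rw [show (h * a * h⁻¹) • h • D₀ = h • D₀ by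
    rw [mul_smul, inv_smul_smul, mul_smul, hmove], ht2] at h1
  refine hw₂ (t⁻¹ * h) (by
    rw [MulAction.mem_stabilizer_iff, mul_smul, ← ht1, inv_smul_smul]) ?_
  rw [show t⁻¹ * h * a * (t⁻¹ * h)⁻¹ = t⁻¹ * (h * a * h⁻¹) * t by group, mul_smul, mul_smul, h1,
    inv_smul_smul]

theorem step [Finite H] [Finite V] [hp : Fact p.Prime] (hp2 : p ≠ 2)
    (hV : ∀ v : V, v ^ p = 1 → v = 1)
    (ih : ∀ (W : Type u) [CommGroup W] [Finite W], (∀ w : W, w ^ p = 1 → w = 1) →
      Nat.card W < Nat.card V → Claim p W)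
    (hf : ∀ h : H, (∀ v : V, h • v = v) → h = 1) {a : H} (ha1 : a ≠ 1) (hap : a ^ p = 1)
    (hR : IsPGroup p (normalClosure ({a} : Set H))) :
    ∃ v : V, ∀ h : H, (h * a * h⁻¹) • v ≠ v := by
  classical
  obtain ⟨R, hRa⟩ : ∃ R : Subgroup H, R = normalClosure ({a} : Set H) := ⟨_, rfl⟩
  haveI : R.Normal := hRa ▸ normalClosure_normal
  rw [← hRa] at hR
  have ha : a ∈ R := hRa ▸ subset_normalClosure rfl
  by_cases hred : ∃ W : Subgroup V, (∀ (h : H), ∀ w ∈ W, h • w ∈ W) ∧ W ≠ ⊤ ∧ ∃ w ∈ W, a • w ≠ w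
  · obtain ⟨W, h1, h2, w, hw, haw⟩ := hred
    obtain ⟨v, -, hv⟩ := claim_res (S := ⊤) hR (W := W) (fun s _ => h1 s)
      (ih _ (fun w hw => Subtype.ext (hV w (congrArg Subtype.val hw)))
      (Finite.card_subtype_lt (x := _) (Classical.choose_spec
        (not_forall.1 fun h => h2 ((eq_top_iff' _).2 h))))) ha (mem_top a) hw haw
    exact ⟨v, fun h => hv h (mem_top h)⟩
  push Not at hred
  obtain ⟨v₀, hv₀⟩ : ∃ v : V, a • v ≠ v := not_forall.1 fun h => ha1 (hf a h)
  haveI : Nontrivial V := ⟨⟨_, _, hv₀⟩⟩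
  have hfR : fix V R = ⊥ := by
    have h1 : (nm R : V →* V).ker = ⊤ := by
      by_contra h1
      have h2 := hred _ (fun h w hw => by
        rw [MonoidHom.mem_ker] at hw ⊢
        rw [← smul_nm, hw, smul_one]) h1 (a • v₀ / v₀) (by
          rw [MonoidHom.mem_ker, map_div, nm_smul R ha, div_self'])
      have h3 : ∀ k : ℕ, a ^ k • v₀ = (a • v₀ / v₀) ^ k * v₀ := by
        intro k
        induction k with
        | zero => simp
        | succ k ih => rw [pow_succ', mul_smul, ih, smul_mul', smul_pow', h2, pow_succ, mul_assoc,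
            div_mul_cancel]
      have h4 := h3 p
      rw [hap, one_smul, eq_comm, mul_eq_right] at h4
      exact hv₀ (div_eq_one.1 (hV _ h4))
    rw [eq_bot_iff]
    intro v hv
    obtain ⟨k, hk⟩ := IsPGroup.iff_card.1 hR
    exact eq_one_of_pow_pow hV (k := k) (by rw [← hk, ← nm_of_mem_fix R hv]; exact h1.ge (mem_top v))
  have hirr : ∀ W : Subgroup V, (∀ (h : H), ∀ w ∈ W, h • w ∈ W) → W ≠ ⊤ → W = ⊥ := by
    intro W h1 h2
    rw [eq_bot_iff, ← hfR]
    intro w hw
    rw [mem_fix_iff_le, hRa, normalClosure, closure_le]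
    intro x hx
    obtain ⟨b, hb, h3⟩ := Group.mem_conjugatesOfSet_iff.1 hx
    obtain ⟨g, rfl⟩ := isConj_iff.1 h3
    rw [Set.mem_singleton_iff.1 hb, SetLike.mem_coe, MulAction.mem_stabilizer_iff, mul_smul,
      mul_smul, hred W h1 h2 _ (h1 _ w hw), smul_inv_smul]
  have hfN : ∀ B : Subgroup H, B.Normal → B ≠ ⊥ → fix V B = ⊥ := by
    intro B hB h0
    refine hirr _ (fun h w hw => fix_anti ?_ (smul_mem_fix hw h)) fun e => h0 ?_
    · intro x hx
      rw [mem_pointwise_smul_iff_inv_smul_mem]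
      simpa using hB.conj_mem x hx h⁻¹
    · exact eq_bot_iff.2 fun d hd => hf d fun v => e.ge (mem_top v) d hd
  by_cases hcyc : ∀ A : Subgroup R, A.Characteristic → IsMulCommutative A → IsCyclic A
  swap
  · push Not at hcyc
    obtain ⟨A, hA1, hA2, hA3⟩ := hcyc
    have hAp := hR.to_subgroup A
    have h1 := Cfsg.Lib.PGroup.sq_le_card_omegaOne_of_not_isCyclic hAp hA2 hA3
    have hB : ∀ x ∈ A.map R.subtype, ∀ y ∈ A.map R.subtype, x * y = y * x := by
      rintro _ ⟨x, hx, rfl⟩ _ ⟨y, hy, rfl⟩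
      exact congrArg Subtype.val (Cfsg.Lib.PGroup.isMulCommutative_iff.1 hA2 x hx y hy)
    have hA0 : A ≠ ⊥ := by
      rintro rfl
      exact hA3 inferInstance
    obtain ⟨z, hz, hzp⟩ := Cfsg.Lib.Core.exists_mem_orderOf_eq_prime (H := A) hp.out (by
      obtain ⟨k, hk⟩ := IsPGroup.iff_card.1 hAp
      rw [hk]
      refine dvd_pow_self _ ?_
      rintro rfl
      exact hA0 (by simpa using hk))
    have hz1 : (z : H) ≠ 1 := fun e => hp.out.ne_one (by
      rw [← hzp, show z = 1 from Subtype.ext e, orderOf_one])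
    obtain ⟨y, hy, hyp, hyz⟩ : ∃ y ∈ A, y ^ p = 1 ∧ y ∉ zpowers z := by
      by_contra hcon
      push Not at hcon
      have h2 : omegaOne p A ≤ zpowers z := (closure_le _).2 fun x hx => hcon x hx.1 hx.2
      have h3 := card_le_of_le h2
      rw [Nat.card_zpowers, hzp] at h3
      have := hp.out.one_lt
      nlinarith
    have hfB := hfN (A.map R.subtype) inferInstance fun e => hz1 (mem_bot.1 (e.le ⟨z, hz, rfl⟩))
    by_cases hzf : ∀ v : V, (z : H) • v = v → v = 1
    · obtain ⟨j, v, -, h2, h3⟩ := exists_fixed hp.out hV (y := (y : H)) (z := (z : H))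
        (hB _ ⟨y, hy, rfl⟩ _ ⟨z, hz, rfl⟩) (congrArg Subtype.val hyp)
        (congrArg Subtype.val (hzp ▸ pow_orderOf_eq_one z : z ^ p = 1)) (W := ⊤)
        (fun _ _ => mem_top _) (fun _ _ => mem_top _) (fun v _ => hzf v) top_ne_bot
      refine step_comp hp2 hV ih hf hirr hR (map_subtype_le A) hB hfB (b := (y : H) * (z : H) ^ j)
        ⟨y * z ^ j, mul_mem hy (pow_mem hz j), rfl⟩ (fun e => hyz ?_) (fun e => h2 (mem_bot.1
          (e.le (mem_fix_iff_le.2 (zpowers_le.2 h3))))) ha ha1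
      rw [show y = (z ^ j)⁻¹ from eq_inv_of_mul_eq_one_left (Subtype.ext e)]
      exact inv_mem (pow_mem (mem_zpowers z) j)
    · push Not at hzf
      obtain ⟨v, h3, h2⟩ := hzf
      exact step_comp hp2 hV ih hf hirr hR (map_subtype_le A) hB hfB (b := (z : H))
        ⟨z, hz, rfl⟩ hz1 (fun e => h2 (mem_bot.1
          (e.le (mem_fix_iff_le.2 (zpowers_le.2 h3))))) ha ha1
  haveI : Nontrivial R := ⟨⟨⟨a, ha⟩, 1, fun e => ha1 (congrArg Subtype.val e)⟩⟩
  have hc := commutator_mem_center_of_cyclic hp2 hR hcyc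
  have hexp : ∀ x : R, x ^ p = 1 := by
    have : ∀ x ∈ normalClosure ({a} : Set H), x ^ p = 1 := by
      intro x hx
      induction hx using closure_induction with
      | mem x hx =>
        obtain ⟨b, hb, h3⟩ := Group.mem_conjugatesOfSet_iff.1 hx
        obtain ⟨g, rfl⟩ := isConj_iff.1 h3
        rw [Set.mem_singleton_iff.1 hb, conj_pow, hap, mul_one, mul_inv_cancel]
      | one => exact one_pow _
      | mul x y hx hy h1 h2 =>
        have hx' : x ∈ R := hRa ▸ hx
        have hy' : y ∈ R := hRa ▸ hy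
        exact Cfsg.Lib.PGroup.mul_pow_eq_one_of_odd_of_commute_commutator (hp.out.odd_of_ne_two hp2)
          (congrArg Subtype.val (mem_center_iff.1 (hc ⟨y, hy'⟩ ⟨x, hx'⟩) ⟨x, hx'⟩))
          (congrArg Subtype.val (mem_center_iff.1 (hc ⟨y, hy'⟩ ⟨x, hx'⟩) ⟨y, hy'⟩)) h1 h2
      | inv x _ h1 => rw [inv_pow, h1, inv_one]
    exact fun x => Subtype.ext (this x (hRa ▸ x.2))
  have hZ : Nat.card (center R) = p := by
    haveI := hcyc (center R) inferInstance inferInstance
    have h1 : Nat.card (center R) ∣ p := by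
      rw [← IsCyclic.exponent_eq_card]
      exact Monoid.exponent_dvd_of_forall_pow_eq_one fun x => Subtype.ext (hexp x)
    exact ((Nat.dvd_prime hp.out).1 h1).resolve_left
      ((one_lt_card_iff_ne_bot _).2 hR.bot_lt_center.ne').ne'
  have hfpf : ∀ z ∈ center R, z ≠ 1 → ∀ v : V, z • v = v → v = 1 := by
    intro z hz hz1 v hv
    have h1 := hfN ((center R).map R.subtype) inferInstance fun e =>
      hz1 (Subtype.ext (mem_bot.1 (e.le ⟨z, hz, rfl⟩)))
    refine mem_bot.1 (h1.le ?_)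
    rintro _ ⟨y, hy, rfl⟩
    haveI : Fact (Nat.card (center R)).Prime := ⟨hZ ▸ hp.out⟩
    obtain ⟨k, hk⟩ : (⟨y, hy⟩ : center R) ∈ zpowers (⟨z, hz⟩ : center R) :=
      mem_zpowers_of_prime_card rfl (fun h => hz1 (congrArg Subtype.val h))
    have h4 : z ^ k = y := congrArg Subtype.val hk
    exact (zpowers_le (H := MulAction.stabilizer R v)).2 hv ⟨k, h4⟩
  have hcon : ∀ h : H, h * a * h⁻¹ ∈ R := fun h => Normal.conj_mem ‹R.Normal› a ha h
  by_cases haZ : (⟨a, ha⟩ : R) ∈ center R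
  · obtain ⟨v, hv⟩ := exists_ne (1 : V)
    refine ⟨v, fun h e => hv (hfpf ⟨_, hcon h⟩ ?_ (fun e => ha1 ?_) v e)⟩
    · exact (characteristic_iff_map_le.1 inferInstance (MulAut.conjNormal h)) ⟨_, haZ, rfl⟩
    · simpa using congrArg Subtype.val e
  · obtain ⟨v, hv⟩ := exists_regular (H := R) (V := V) hp2 hV hexp hZ hc hfpf
    refine ⟨v, fun h => hv ⟨_, hcon h⟩ fun e => haZ ?_⟩
    have := (characteristic_iff_map_le.1 inferInstance (MulAut.conjNormal h⁻¹)) ⟨_, e, rfl⟩
    convert this using 1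
    exact Subtype.ext (by simp [mul_assoc])

theorem claim [hp : Fact p.Prime] (hp2 : p ≠ 2) (n : ℕ) : ∀ (V : Type u) [CommGroup V] [Finite V],
    Nat.card V = n → (∀ v : V, v ^ p = 1 → v = 1) → Claim p V := by
  induction n using Nat.strong_induction_on with
  | _ n ih =>
  intro V _ _ hn hV H _ _ _ R _ hR a ha hmove
  let φ := (MulDistribMulAction.toMulAut H V).rangeRestrict
  have hφ : Function.Surjective φ := MonoidHom.rangeRestrict_surjective _
  have hs : ∀ (h : H) (v : V), φ h • v = h • v := fun _ _ => rfl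
  have hf : ∀ h : (MulDistribMulAction.toMulAut H V).range, (∀ v : V, h • v = v) → h = 1 :=
    fun h e => Subtype.ext (MulEquiv.ext e)
  haveI : (R.map φ).Normal := Normal.map inferInstance φ hφ
  have hRp : IsPGroup p (R.map φ) := by
    rintro ⟨_, r, hr, rfl⟩
    obtain ⟨k, hk⟩ := hR r hr
    exact ⟨k, Subtype.ext (hf _ fun v => by
      change φ r ^ p ^ k • v = v
      rw [← map_pow, hs, hk])⟩
  obtain ⟨k, hk⟩ := (IsPGroup.iff_orderOf.1 hRp) ⟨φ a, a, ha, rfl⟩
  rw [← Subgroup.orderOf_coe] at hk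
  change orderOf (φ a) = _ at hk
  obtain ⟨v₀, hv₀⟩ := hmove
  obtain ⟨j, rfl⟩ : ∃ j, k = j + 1 := Nat.exists_eq_succ_of_ne_zero (by
    rintro rfl
    rw [pow_zero, orderOf_eq_one_iff] at hk
    exact hv₀ (by rw [← hs, hk, one_smul]))
  obtain ⟨v, hv⟩ := step hp2 hV (fun W _ _ h1 h2 => ih _ (hn ▸ h2) W rfl h1) hf
    (a := φ a ^ p ^ j) (pow_ne_one_of_lt_orderOf (pow_ne_zero _ hp.out.ne_zero)
      (hk ▸ Nat.pow_lt_pow_right hp.out.one_lt (Nat.lt_succ_self j)))
    (by rw [← pow_mul, ← pow_succ, ← hk, pow_orderOf_eq_one])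
    (hRp.to_le (normalClosure_le_normal (Set.singleton_subset_iff.2 (pow_mem (mem_map_of_mem φ ha) _))))
  refine ⟨v, fun h e => hv (φ h) ?_⟩
  rw [← conj_pow, ← map_inv, ← map_mul, ← map_mul, ← map_pow, hs]
  exact pow_mem (show h * a * h⁻¹ ∈ MulAction.stabilizer H v from e) _

end Cfsg.Lib.MovedVec
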